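import Cfsg.Agent.Lib.H4.Defect
import Cfsg.Agent.Lib.H4.Brauer
import Cfsg.Agent.Lib.H4.CenterIndex
import Cfsg.Agent.Lib.H31.FunBasic
import Cfsg.Agent.Lib.H18.CharCentral
import Cfsg.Agent.Lib.H18.Primitive

/-!
Coset sums of irreducible characters over normal subgroups, and the coefficients with
algebraic-integer values.  Elements of order prime to `t` in a nilpotent group.
-/

set_option autoImplicit false
set_option linter.unusedSectionVars false

namespace H18.AvgInt

open Cfsg H18.CharBasic H18.CharOrtho H18.CharInd H18.CharQuot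
open scoped ComplexConjugate

universe u

theorem coset_sum_zero {G : Type u} [Group G] [Fintype G] (N : Subgroup G) [hn : N.Normal]
    [Fintype N] {β : G → ℂ} (hβ : IsIrrCharacter G β) (hβN : ¬ ∀ n ∈ N, β n = β 1) (g : G) :
    ∑ n : N, β ((n : G) * g) = 0 := by
  classical
  let θ : G → ℂ := fun g => if g ∈ N then 1 else 0
  have hθ : IsClassFunction G θ := by
    intro a x
    have h : (x * a * x⁻¹ ∈ N) ↔ a ∈ N := by
      constructor
      · intro h
        have := hn.conj_mem _ h x⁻¹
        simpa [mul_assoc] using this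
      · intro h; exact hn.conj_mem _ h x
    simp only [θ, h]
  have hsum : ∀ f : G → ℂ, ∑ g : G, θ g * f g = ∑ n : N, f n := by
    intro f
    rw [H31.FunBasic.sum_subgroup_eq N (fun g => θ g * f g) (by
      intro g hg; simp [θ, hg])]
    refine Finset.sum_congr rfl fun n _ => ?_
    simp [θ]
  have hshift : ∀ y : G, ∑ n : N, β ((n : G) * y) = (∑ n : N, β n) / β 1 * β y := by
    intro y
    have := H18.CharCentral.sum_mul_shift hβ hθ y
    rwa [hsum (fun g => β (g * y)), hsum β] at this
  have hβ1 := irr_one_ne_zero hβ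
  have hs : ∑ n : N, β n = 0 := by
    by_contra hs
    apply hβN
    intro y hy
    have h1 := hshift y
    have h2 : ∑ n : N, β ((n : G) * y) = ∑ n : N, β n :=
      Fintype.sum_equiv (Equiv.mulRight (⟨y, hy⟩ : N)) _ _ (fun n => rfl)
    rw [h2] at h1
    field_simp at h1
    exact h1.symm
  rw [hshift, hs]; simp

/-- A function constant on cosets of `N` is orthogonal to characters not containing `N` in the
kernel. -/
theorem inner_zero_of_coset {G : Type u} [Group G] [Fintype G] (N : Subgroup G) [hn : N.Normal]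
    {η β : G → ℂ} (hη : ∀ n ∈ N, ∀ g : G, η (n * g) = η g) (hβ : IsIrrCharacter G β)
    (hβN : ¬ ∀ n ∈ N, β n = β 1) : classInner η β = 0 := by
  classical
  have : Fintype N := Fintype.ofFinite _
  have h1 := coset_sum_zero N hβ hβN
  unfold classInner
  have h2 : (Nat.card N : ℂ) * ∑ g : G, η g * conj (β g) = 0 := by
    have h3 : ∀ n : N, ∑ g : G, η g * conj (β g) = ∑ g : G, η g * conj (β ((n : G) * g)) := by
      intro n
      rw [← Fintype.sum_equiv (Equiv.mulLeft (n : G))
        (fun g => η ((n : G) * g) * conj (β ((n : G) * g))) (fun g => η g * conj (β g))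
        (fun g => rfl)]
      refine Finset.sum_congr rfl fun g _ => ?_
      rw [hη n n.2]
    calc (Nat.card N : ℂ) * ∑ g : G, η g * conj (β g) =
        ∑ n : N, ∑ g : G, η g * conj (β g) := by
          rw [Finset.sum_const, Finset.card_univ, Nat.card_eq_fintype_card, nsmul_eq_mul]
      _ = ∑ n : N, ∑ g : G, η g * conj (β ((n : G) * g)) :=
          Finset.sum_congr rfl fun n _ => h3 n
      _ = ∑ g : G, η g * conj (∑ n : N, β ((n : G) * g)) := by
          rw [Finset.sum_comm]
          refine Finset.sum_congr rfl fun g _ => ?_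
          rw [map_sum, Finset.mul_sum]
      _ = 0 := by
          refine Finset.sum_eq_zero fun g _ => ?_
          rw [h1, map_zero, mul_zero]
  have h4 : (Nat.card N : ℂ) ≠ 0 := card_ne_zero'
  rw [(mul_eq_zero.1 h2).resolve_left h4, mul_zero]

/-- Lemma Q. -/
theorem inner_integral {E : Type u} [Group E] [Fintype E] (B : Subgroup E) [hB : B.Normal]
    {f : E → ℂ} (hf : ∀ b ∈ B, ∀ x : E, f (x * b) = f x)
    (hval : ∀ x : E, ∃ z : ℂ, IsIntegral ℤ z ∧ f x = (B.index : ℂ) * z) {lam : E → ℂ}
    (hlam : IsIrrCharacter E lam) : IsIntegral ℤ (classInner f lam) := by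
  classical
  have hf' : ∀ b ∈ B, ∀ x : E, f (b * x) = f x := by
    intro b hb x
    have h1 : b * x = x * (x⁻¹ * b * x) := by group
    rw [h1]
    apply hf
    have := hB.conj_mem b hb x⁻¹
    rwa [inv_inv] at this
  by_cases hker : ∀ b ∈ B, lam b = lam 1
  · have hlc := isCharacter_of_isIrr hlam
    have : Fintype (E ⧸ B) := Fintype.ofFinite _
    choose z hz hfz using hval
    unfold classInner
    rw [H4.CenterIndex.sum_of_coset_const B (fun x => f x * conj (lam x)) (by
      intro g b hb
      rw [hf b hb, char_mul_right hlc (hker b hb)])]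
    have hBc : (Nat.card B : ℂ) ≠ 0 := card_ne_zero'
    have hBi : (B.index : ℂ) ≠ 0 := by exact_mod_cast Subgroup.index_ne_zero_of_finite
    have h1 : (Nat.card E : ℂ)⁻¹ *
        (Nat.card B • ∑ q : E ⧸ B, f (Quotient.out q) * conj (lam (Quotient.out q))) =
        ∑ q : E ⧸ B, z (Quotient.out q) * conj (lam (Quotient.out q)) := by
      rw [nsmul_eq_mul, ← Subgroup.card_mul_index B]
      have h2 : ∀ q : E ⧸ B, f (Quotient.out q) * conj (lam (Quotient.out q)) =
          (B.index : ℂ) * (z (Quotient.out q) * conj (lam (Quotient.out q))) := by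
        intro q
        rw [hfz]; ring
      rw [Finset.sum_congr rfl (fun q _ => h2 q), ← Finset.mul_sum]
      push_cast
      field_simp
    rw [h1]
    refine IsIntegral.sum _ fun q _ => IsIntegral.mul (hz _) ?_
    have := char_isIntegral hlc (Quotient.out q)
    rw [← char_inv hlc]
    exact char_isIntegral hlc _
  · rw [inner_zero_of_coset B hf' hlam hker]
    exact isIntegral_zero

section nilp

/-- In a nilpotent group the elements of order prime to `t` form a normal subgroup. -/
theorem exists_regSub (E : Type u) [Group E] [Finite E] [Group.IsNilpotent E] (t : ℕ) (ht : t ≠ 0) :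
    ∃ B : Subgroup E, B.Normal ∧ (∀ x : E, x ∈ B ↔ (orderOf x).Coprime t) := by
  classical
  have h : ∀ q : t.primeFactors, ∃ Q : Subgroup E, ∀ x : E, x ∈ Q ↔ (orderOf x).Coprime q := by
    intro q
    have : Fact (q : ℕ).Prime := ⟨Nat.prime_of_mem_primeFactors q.2⟩
    obtain ⟨_, Q, hQ, _⟩ := H4.Defect.exists_reg_part E (q : ℕ)
    exact ⟨Q, hQ⟩
  choose Q hQ using h
  have hmem : ∀ x : E, x ∈ (⨅ q, Q q) ↔ (orderOf x).Coprime t := by
    intro x
    rw [Subgroup.mem_iInf]
    constructor
    · intro hx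
      refine Nat.Coprime.symm (Nat.coprime_of_dvd fun k hk hkt hkx => ?_)
      have h1 := (hQ ⟨k, Nat.mem_primeFactors.2 ⟨hk, hkt, ht⟩⟩ x).1
        (hx ⟨k, Nat.mem_primeFactors.2 ⟨hk, hkt, ht⟩⟩)
      exact ((Nat.Prime.coprime_iff_not_dvd hk).1 h1.symm) hkx
    · intro hx q
      rw [hQ]
      exact Nat.Coprime.coprime_dvd_right (Nat.dvd_of_mem_primeFactors q.2) hx
  refine ⟨⨅ q, Q q, ⟨fun x hx g => ?_⟩, hmem⟩
  rw [hmem] at hx ⊢
  have h1 : orderOf (g * x * g⁻¹) = orderOf x := by
    have := MulEquiv.orderOf_eq (MulAut.conj g) x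
    rw [← this]; rfl
  rw [h1]; exact hx

theorem index_dvd_of_regSub {E : Type u} [Group E] [Finite E] {m n : ℕ}
    (hE : Nat.card E ∣ m * n) (B : Subgroup E)
    (hB : ∀ x : E, x ∈ B ↔ (orderOf x).Coprime n) (hcop : Nat.Coprime m n) : B.index ∣ n := by
  have h1 : Nat.Coprime B.index m := by
    refine Nat.Coprime.symm (Nat.coprime_of_dvd fun r hr hrm hrB => ?_)
    have : Fact r.Prime := ⟨hr⟩
    have hrn : Nat.Coprime r n := Nat.Coprime.coprime_dvd_left hrm hcop
    obtain ⟨S⟩ : Nonempty (Sylow r E) := inferInstance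
    have hSB : (S : Subgroup E) ≤ B := by
      intro x hx
      rw [hB]
      obtain ⟨k, hk⟩ := IsPGroup.iff_orderOf.1 S.isPGroup' ⟨x, hx⟩
      rw [Subgroup.orderOf_mk] at hk
      rw [hk]
      exact Nat.Coprime.pow_left k hrn
    exact S.not_dvd_index (hrB.trans (Subgroup.index_dvd_of_le hSB))
  have h2 : B.index ∣ m * n := (Subgroup.index_dvd_card B).trans hE
  exact Nat.Coprime.dvd_of_dvd_mul_left h1 h2

end nilp

end H18.AvgInt
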