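import Mathlib
import Cfsg.Agent.Lib.H18.BD6
import Cfsg.Agent.Lib.H89.SylIn

/-!
T-BENDER (Q3), case `C_D(E_a) ≠ 1`: `C_{G_a}(E_a)` is transitive on the other points.
-/

set_option autoImplicit false

namespace H18.BD

universe u v

variable {G Ω : Type u} [Group G] [MulAction G Ω] [Finite G] [Finite Ω]

theorem hCt_of_D0 (h : Cl G Ω) (hT : TProp G Ω) {a b : Ω} (hab : a ≠ b)
    (h2 : ∀ c : Ω, c ≠ a → ∃ g : G, g • a = a ∧ g • b = c) (hL : LocReg G a b) (hD : D0 G a b ≠ ⊥) :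
    ∀ x y : Ω, x ≠ a → y ≠ a → ∃ c ∈ CE G a, c • x = y := by
  classical
  -- a prime dividing `|D₀|`
  have hcard1 : Nat.card (D0 G a b) ≠ 1 := fun h1 => hD (Subgroup.card_eq_one.1 h1)
  obtain ⟨l, hl, hlD⟩ := Nat.exists_prime_and_dvd hcard1
  haveI := Fact.mk hl
  have hcop := coprime_D0 h hT hab hL
  have hlN : ¬ l ∣ Nat.card {x : Ω // x ≠ a} := by
    intro hd
    have h1 := Nat.dvd_gcd hlD hd
    rw [hcop] at h1
    exact hl.one_lt.ne' (Nat.dvd_one.1 h1)
  obtain ⟨P0, hP0⟩ := H89.Syl.exists_sylIn (p := l) (CE G a)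
  obtain ⟨x0, hx0, hP0x⟩ := fix_of_pgroup h (b := b) hl hlN hP0.2.1 (fun e he => (hP0.1 he).1)
  obtain ⟨g0, hg0a, hg0⟩ := h2 x0 hx0
  have hg0a' : g0⁻¹ • a = a := by rw [inv_smul_eq_iff, hg0a]
  -- conjugate into `D₀`
  set P : Subgroup G := P0.map (MulAut.conj g0⁻¹).toMonoidHom with hPdef
  have hPC : P ≤ CE G a := by
    rintro _ ⟨e, he, rfl⟩
    exact CE_conj (hP0.1 he) hg0a'
  have hPp : IsPGroup l P := hP0.2.1.map _
  have hP : H89.Syl.SylIn l P (CE G a) := by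
    refine H89.Syl.sylIn_of_card_le hP0 hPC hPp ?_
    rw [hPdef]
    exact (Nat.card_congr (P0.equivMapOfInjective _ (MulAut.conj g0⁻¹).injective).toEquiv).le
  have hPb : ∀ e ∈ P, e • b = b := by
    rintro _ ⟨e, he, rfl⟩
    change (g0⁻¹ * e * g0⁻¹⁻¹) • b = b
    rw [inv_inv, mul_smul, mul_smul, hg0, hP0x e he, ← hg0, inv_smul_smul]
  have hPD : ∀ y ∈ (P : Set G), InD a b y := fun y hy => ⟨(hPC hy).1, hPb y hy, (hPC hy).2⟩
  have hP1 : P ≠ ⊥ := by
    intro h1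
    have h3 := hP.2.2
    rw [h1, Subgroup.relIndex_bot_left] at h3
    exact h3 (hlD.trans (Subgroup.card_dvd_of_le inf_le_left))
  obtain ⟨y1, hy1P, hy1⟩ := (Subgroup.ne_bot_iff_exists_ne_one.1 hP1 : ∃ a : P, a ≠ 1)
    |>.imp (fun y hy => hy) |> fun ⟨y, hy⟩ => (⟨(y : G), y.2, fun hh => hy (Subtype.ext hh)⟩ :
      ∃ y : G, y ∈ P ∧ y ≠ 1)
  have hDY := hT l hl P hPp (h.three_of_InD hab hPD)
  have hM := h.toClW.centralizer_of hab hPD hDY
  have hR := hL (P : Set G) ⟨y1, hy1P, hy1⟩ hPD hM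
  let a' : Fx (P : Set G) Ω := ⟨a, fun z hz => (hPD z hz).1⟩
  obtain ⟨T, hT1, hT2, hT3, hT4, hT5⟩ := hM.of_reg_img hR a'
  -- every point is in the orbit of `b`
  have key : ∀ y : Ω, y ≠ a → ∃ c ∈ CE G a, c • y = b := by
    intro y hy
    obtain ⟨g, hga, hgb⟩ := h2 y hy
    have hUle : P.map (MulAut.conj g).toMonoidHom ≤ CE G a := by
      rintro _ ⟨e, he, rfl⟩
      exact CE_conj (hPC he) hga
    obtain ⟨c, hc, hcU⟩ := hP.exists_conj hUle (hPp.map _)
    -- `c g` normalises `P`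
    have hnorm : ∀ e ∈ P, (c * g) * e * (c * g)⁻¹ ∈ P := by
      intro e he
      have h1 := hcU (g * e * g⁻¹) ⟨e, he, rfl⟩
      have h4 : c * (g * e * g⁻¹) * c⁻¹ = (c * g) * e * (c * g)⁻¹ := by group
      rwa [h4] at h1
    have hsurj : ∀ e ∈ P, (c * g)⁻¹ * e * (c * g) ∈ P := by
      have hinj : Function.Injective (fun e : P => (⟨(c * g) * e * (c * g)⁻¹, hnorm e e.2⟩ : P)) := by
        intro e f hef
        have h1 : (c * g) * (e : G) * (c * g)⁻¹ = (c * g) * f * (c * g)⁻¹ := congrArg Subtype.val hef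
        apply Subtype.ext
        calc (e : G) = (c * g)⁻¹ * ((c * g) * (e : G) * (c * g)⁻¹) * (c * g) := by group
          _ = f := by rw [h1]; group
      have hs := (Finite.injective_iff_surjective).1 hinj
      intro e he
      obtain ⟨f, hf⟩ := hs ⟨e, he⟩
      have h1 : (c * g) * (f : G) * (c * g)⁻¹ = e := congrArg Subtype.val hf
      have h4 : (c * g)⁻¹ * e * (c * g) = f := by rw [← h1]; group
      rw [h4]
      exact f.2
    have hfix : ∀ e ∈ (P : Set G), e • (c • y) = c • y := by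
      intro e he
      have h1 := hPb _ (hsurj e he)
      have h4 : e = (c * g) * ((c * g)⁻¹ * e * (c * g)) * (c * g)⁻¹ := by group
      have h5 : (c * g)⁻¹ • (c • y) = b := by
        rw [mul_inv_rev, mul_smul, inv_smul_smul, ← hgb, inv_smul_smul]
      rw [h4, mul_smul, mul_smul, h5, h1, ← h5, smul_inv_smul]
    have hca : c • y ≠ a := by
      intro hh
      apply hy
      have h1 : c⁻¹ • a = a := by rw [inv_smul_eq_iff, hc.1]
      calc y = c⁻¹ • (c • y) := by rw [inv_smul_smul]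
        _ = a := by rw [hh, h1]
    obtain ⟨q, hq, hqx⟩ := hT3 ⟨c • y, hfix⟩ ⟨b, hPb⟩
      (fun hh => hca (congrArg Subtype.val hh)) (fun hh => hab (congrArg Subtype.val hh).symm)
    have hqb : (q : G) • (c • y) = b := congrArg Subtype.val hqx
    have hqCE : (q : G) ∈ CE G a := by
      refine ⟨congrArg Subtype.val (hT1 q hq), fun t ht hta => ?_⟩
      have htM : t ∈ Subgroup.centralizer (P : Set G) := by
        rw [Subgroup.mem_centralizer_iff]
        intro z hz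
        exact (hPD z hz).2.2 t ht hta
      have h2 := (hT5 ⟨t, htM⟩ (Subtype.ext ht) (Fx.ext hta)).2 q hq
      exact (congrArg Subtype.val h2).symm
    exact ⟨q * c, (CE G a).mul_mem hqCE hc, by rw [mul_smul, hqb]⟩
  intro x y hx hy
  obtain ⟨c, hc, hcx⟩ := key x hx
  obtain ⟨d, hd, hdy⟩ := key y hy
  refine ⟨d⁻¹ * c, (CE G a).mul_mem ((CE G a).inv_mem hd) hc, ?_⟩
  rw [mul_smul, hcx, ← hdy, inv_smul_smul]

end H18.BD
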