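import Mathlib
import Cfsg.Agent.Lib.H18.BD6
import Cfsg.Agent.S0059

/-!
T-BENDER (Q3): the local structure at an element `x` of prime order of `G_a` fixing a second point and commuting with
two involutions of `G_a`.
-/

set_option autoImplicit false

namespace H18.BD

open scoped Pointwise

universe u v

/-- pointwise stabiliser of the fixed points of `x` -/
def PW {G : Type u} [Group G] (Ω : Type v) [MulAction G Ω] (x : G) : Subgroup G where
  carrier := {g | ∀ z : Ω, x • z = z → g • z = z}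
  one_mem' := fun z _ => one_smul G z
  mul_mem' := fun {g h} hg hh z hz => by rw [mul_smul, hh z hz, hg z hz]
  inv_mem' := fun {g} hg z hz => by rw [inv_smul_eq_iff, hg z hz]

/-- Glauberman's lemma for a transitive normal 2-subgroup: fixed points and their conjugacy -/
theorem fix_of_regular2 {R : Type u} {F : Type v} [Group R] [Finite R] [MulAction R F] {a b : F} (hab : b ≠ a)
    (Q E : Subgroup R) (hQ : IsPGroup 2 Q) (hQa : ∀ q ∈ Q, q • a = a) (hEa : ∀ e ∈ E, e • a = a)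
    (hn : ∀ e ∈ E, ∀ q ∈ Q, e * q * e⁻¹ ∈ Q) (htr : ∀ x y : F, x ≠ a → y ≠ a → ∃ q ∈ Q, q • x = y)
    (hE : Odd (Nat.card E)) : (∃ x : F, x ≠ a ∧ ∀ e ∈ E, e • x = x) ∧
      ∀ x y : F, x ≠ a → y ≠ a → (∀ e ∈ E, e • x = x) → (∀ e ∈ E, e • y = y) →
        ∃ q ∈ Q, (∀ e ∈ E, e * q = q * e) ∧ q • x = y := by
  classical
  have hXa : ∀ g ∈ Q ⊔ E, g • a = a := by
    have hle : Q ⊔ E ≤ MulAction.stabilizer R a := sup_le (fun q hq => hQa q hq) (fun e he => hEa e he)
    exact fun g hg => hle hg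
  have hne : ∀ (g : ↥(Q ⊔ E)) (x : {x : F // x ≠ a}), (g : R) • x.1 ≠ a := by
    rintro g ⟨x, hx⟩ hgx
    apply hx
    have h1 : (g : R)⁻¹ • a = a := hXa _ ((Q ⊔ E).inv_mem g.2)
    rw [← h1, ← hgx]
    simp
  letI : MulAction ↥(Q ⊔ E) {x : F // x ≠ a} :=
    { smul := fun g x => ⟨(g : R) • x.1, hne g x⟩
      one_smul := fun x => Subtype.ext (one_smul R x.1)
      mul_smul := fun g h x => Subtype.ext (mul_smul (g : R) (h : R) x.1) }
  haveI : Nonempty {x : F // x ≠ a} := ⟨⟨b, hab⟩⟩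
  have hEn : Q ⊔ E ≤ Subgroup.normalizer (Q : Set R) := by
    refine sup_le Subgroup.le_normalizer ?_
    intro e he
    rw [Subgroup.mem_normalizer_iff]
    intro q
    constructor
    · intro hq
      exact hn e he q hq
    · intro hq
      have h1 := hn e⁻¹ (E.inv_mem he) _ hq
      have h2 : e⁻¹ * (e * q * e⁻¹) * e⁻¹⁻¹ = q := by group
      rwa [h2] at h1
  haveI hN : (Q.subgroupOf (Q ⊔ E)).Normal := by
    constructor
    rintro ⟨q, hq'⟩ hq ⟨g, hg⟩
    rw [Subgroup.mem_subgroupOf] at hq ⊢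
    exact (Subgroup.mem_normalizer_iff.1 (hEn hg) q).1 hq
  obtain ⟨k, hk⟩ := (IsPGroup.iff_card (p := 2)).1 hQ
  have hcK : Nat.card (Q.subgroupOf (Q ⊔ E)) = 2 ^ k := by
    rw [← hk]
    exact Nat.card_congr (Subgroup.subgroupOfEquivOfLe le_sup_left).toEquiv
  have hcH : Nat.card (E.subgroupOf (Q ⊔ E)) = Nat.card E :=
    Nat.card_congr (Subgroup.subgroupOfEquivOfLe le_sup_right).toEquiv
  have hcop : (Nat.card (Q.subgroupOf (Q ⊔ E))).Coprime (Nat.card (E.subgroupOf (Q ⊔ E))) := by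
    rw [hcK, hcH]
    exact Nat.Coprime.pow_left k ((Nat.coprime_two_left).2 hE)
  have htop : Q.subgroupOf (Q ⊔ E) ⊔ E.subgroupOf (Q ⊔ E) = ⊤ := by
    rw [← Subgroup.subgroupOf_sup le_sup_left le_sup_right, Subgroup.subgroupOf_self]
  have hc : Subgroup.IsComplement' (Q.subgroupOf (Q ⊔ E)) (E.subgroupOf (Q ⊔ E)) := by
    refine Subgroup.isComplement'_of_disjoint_and_mul_eq_univ ?_ ?_
    · rw [disjoint_iff]
      exact Subgroup.inf_eq_bot_of_coprime hcop
    · rw [← Subgroup.normal_mul, htop]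
      rfl
  have hidx : (Q.subgroupOf (Q ⊔ E)).index = Nat.card (E.subgroupOf (Q ⊔ E)) := hc.symm.index_eq_card
  haveI hQsol : Group.IsSolvable (Q.subgroupOf (Q ⊔ E)) := by
    have hP : IsPGroup 2 (Q.subgroupOf (Q ⊔ E)) := IsPGroup.of_card hcK
    haveI := hP.isNilpotent
    infer_instance
  obtain ⟨⟨x, hx⟩, hconj⟩ := Cfsg.Agent.S0059.result (Q.subgroupOf (Q ⊔ E)) (E.subgroupOf (Q ⊔ E)) (X := {x : F // x ≠ a}) hc
    (by rw [hidx]; exact hcop) (Or.inl hQsol) (by
      constructor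
      rintro ⟨x, hx⟩ ⟨y, hy⟩
      obtain ⟨q, hq, hqx⟩ := htr x y hx hy
      exact ⟨⟨⟨q, Subgroup.mem_sup_left hq⟩, hq⟩, Subtype.ext hqx⟩)
  refine ⟨⟨x.1, x.2, fun e he => ?_⟩, ?_⟩
  · exact congrArg Subtype.val (hx ⟨e, Subgroup.mem_sup_right he⟩ he)
  · intro x y hx hy hEx hEy
    obtain ⟨⟨q, hq'⟩, ⟨hq, hqc⟩, hqx⟩ := hconj ⟨x, hx⟩ ⟨y, hy⟩ (by
      rintro ⟨e, he'⟩ he
      exact Subtype.ext (hEx e he)) (by
      rintro ⟨e, he'⟩ he
      exact Subtype.ext (hEy e he))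
    refine ⟨q, hq, ?_, congrArg Subtype.val hqx⟩
    intro e he
    have h1 := Subgroup.mem_centralizer_iff.1 hqc ⟨e, Subgroup.mem_sup_right he⟩ he
    exact congrArg Subtype.val h1

variable {G Ω : Type u} [Group G] [MulAction G Ω] [Finite G] [Finite Ω]

theorem self_mem_PW {G : Type u} [Group G] (Ω : Type v) [MulAction G Ω] (x : G) : x ∈ PW Ω x := fun _ hz => hz

/-- involutions commuting with `x` centralise `PW x` -/
theorem ClW.comm_PW (h : ClW G Ω) {x : G} {a b : Ω} (hab : a ≠ b) (hxa : x • a = a) (hxb : x • b = b) {s : G}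
    (hs1 : s ≠ 1) (hs : s * s = 1) (hsx : x * s = s * x) : ∀ y ∈ PW Ω x, y * s = s * y := by
  obtain ⟨e, he, _⟩ := h.fix s hs1 hs
  have he : s • e = e := he
  have hxe := h.fix_of_comm hs1 hs he hsx
  obtain ⟨f, hfe, hxf⟩ : ∃ f : Ω, f ≠ e ∧ x • f = f := by
    by_cases hea : e = a
    · exact ⟨b, by rw [hea]; exact hab.symm, hxb⟩
    · exact ⟨a, fun hh => hea hh.symm, hxa⟩
  intro y hy
  have hye : y • e = e := hy e hxe
  have hyf : y • f = f := hy f hxf
  have hysf : y • (s • f) = s • f := hy (s • f) (by rw [← mul_smul, hsx, mul_smul, hxf])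
  have hye' : y⁻¹ • e = e := by rw [inv_smul_eq_iff, hye]
  have h1 : (y * s * y⁻¹) * (y * s * y⁻¹) = 1 := by
    calc (y * s * y⁻¹) * (y * s * y⁻¹) = y * (s * s) * y⁻¹ := by group
      _ = 1 := by rw [hs]; group
  have h2 : (y * s * y⁻¹) • e = e := by rw [mul_smul, mul_smul, hye', he, hye]
  have h3 := h.mul_self_mul h1 hs h2 he
  have h4 : (y * s * y⁻¹ * s) • e = e := by rw [mul_smul, he, h2]
  have h5 : (y * s * y⁻¹ * s) • f = f := by
    have h6 : y⁻¹ • (s • f) = s • f := by rw [inv_smul_eq_iff, hysf]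
    have h7 : s • (s • f) = f := by rw [← mul_smul, hs, one_smul]
    rw [mul_smul, mul_smul, mul_smul, h6, h7, hyf]
  have h6 : y * s * y⁻¹ * s = 1 := by
    by_contra hne
    exact hfe (h.uniq hne h3 h5 h4)
  have hsi : s⁻¹ = s := inv_eq_of_mul_eq_one_right hs
  have h7 : y * s * y⁻¹ = s := by
    have := eq_inv_of_mul_eq_one_left h6
    rw [this, hsi]
  calc y * s = (y * s * y⁻¹) * y := by group
    _ = s * y := by rw [h7]

/-- the 2-elements of `C_{G_a}(Y)`, `Y = PW x` -/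
theorem Cl.loc_S (h : Cl G Ω) (hT : TProp G Ω)
    (IH : ∀ (G' Ω' : Type u) [Group G'] [Finite G'] [Finite Ω'] [MulAction G' Ω'], Nat.card G' < Nat.card G →
      Cl G' Ω' → Reg G' Ω')
    {a b : Ω} (hab : a ≠ b) {x : G} (hxa : x • a = a) (hxb : x • b = b) (hx1 : x ≠ 1) {p : ℕ} (hp : p.Prime)
    (hxp : x ^ p = 1) {t t' : G} (ht1 : t ≠ 1) (ht : t * t = 1) (hta : t • a = a) (htx : x * t = t * x)
    (ht'1 : t' ≠ 1) (ht' : t' * t' = 1) (ht'a : t' • a = a) (ht'x : x * t' = t' * x) (htt' : t ≠ t') :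
    ∃ S : Subgroup G, IsPGroup 2 S ∧ (∀ s ∈ S, s • a = a) ∧ (∀ s ∈ S, x * s = s * x) ∧
      (∀ g : G, g • a = a → x * g = g * x → ∀ s ∈ S, g * s * g⁻¹ ∈ S) ∧
      (∀ u v : Ω, u ≠ a → v ≠ a → x • u = u → x • v = v → ∃ s ∈ S, s • u = v) ∧
      ∃ k : ℕ, Nat.card {u : Ω // x • u = u ∧ u ≠ a} = 2 ^ k := by
  classical
  haveI := Fact.mk hp
  haveI := Fact.mk Nat.prime_two
  set Y : Set G := (PW Ω x : Set G) with hYdef
  have hxY : x ∈ Y := self_mem_PW Ω x
  have hcomm : ∀ s : G, s ≠ 1 → s * s = 1 → x * s = s * x → ∀ y ∈ Y, y * s = s * y :=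
    fun s hs1 hs hsx => h.toClW.comm_PW hab hxa hxb hs1 hs hsx
  have hzp : ∀ (z : Ω), x • z = z → ∀ y ∈ Subgroup.zpowers x, y • z = z := by
    rintro z hz _ ⟨j, rfl⟩
    have h1 : x ∈ MulAction.stabilizer G z := hz
    exact (MulAction.stabilizer G z).zpow_mem h1 j
  have hzpg : IsPGroup p (Subgroup.zpowers x) := by
    rintro ⟨z, j, rfl⟩
    refine ⟨1, Subtype.ext ?_⟩
    change (x ^ j) ^ p ^ 1 = 1
    rw [pow_one, ← zpow_natCast, ← zpow_mul, mul_comm, zpow_mul, zpow_natCast, hxp, one_zpow]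
  have hM : ClW (Subgroup.centralizer Y) (Fx Y Ω) := by
    refine h.toClW.centralizer ?_ ?_ ?_
    · exact ⟨⟨a, fun y hy => hy a hxa⟩, ⟨b, fun y hy => hy b hxb⟩, fun hh => hab (congrArg Subtype.val hh)⟩
    · intro e he
      obtain ⟨s, hs1, hs, hse, hsx⟩ := hT p hp (Subgroup.zpowers x) hzpg ⟨a, b, t • b, hab, by
          intro hh
          apply hab
          have : t • a = b := by rw [hh, ← mul_smul, ht, one_smul]
          rw [← this, hta], by
          intro hh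
          exact hab (h.uniq ht1 ht hta hh.symm), by
          intro y hy
          refine ⟨hzp a hxa y hy, hzp b hxb y hy, ?_⟩
          exact hzp (t • b) (by rw [← mul_smul, htx, mul_smul, hxb]) y hy⟩ e (hzp e (he x hxY))
      exact ⟨s, hs1, hs, hse, hcomm s hs1 hs (hsx x (Subgroup.mem_zpowers x))⟩
    · exact ⟨t, t', ht1, ht'1, htt', ht, ht', h.comm t t' a ht ht' hta ht'a, hcomm t ht1 ht htx,
        hcomm t' ht'1 ht' ht'x⟩
  have hlt : Nat.card (Subgroup.centralizer Y) < Nat.card G := by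
    refine lt_of_le_of_ne (Subgroup.card_le_card_group _) ?_
    intro heq
    have htop := Subgroup.eq_top_of_card_eq _ heq
    apply hx1
    apply h.faith
    intro z
    obtain ⟨g, hg⟩ := h.trans a z
    have hgc : g ∈ Subgroup.centralizer Y := by rw [htop]; trivial
    have h1 := Subgroup.mem_centralizer_iff.1 hgc x hxY
    rw [← hg, ← mul_smul, h1, mul_smul, hxa]
  have hcI := hM.cl_img
  have hR := IH (Img (Subgroup.centralizer Y) (Fx Y Ω)) (Fx Y Ω)
    (lt_of_le_of_lt card_img_le hlt) hcI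
  let a' : Fx Y Ω := ⟨a, fun z hz => hz a hxa⟩
  let b' : Fx Y Ω := ⟨b, fun z hz => hz b hxb⟩
  have hab' : a' ≠ b' := fun hh => hab (congrArg Subtype.val hh)
  obtain ⟨k, hk⟩ := Reg.card hM.nt hR a'
  obtain ⟨Q, hQ1, hQ2, hQ3, hQ4, hQ5, hQ6⟩ := hR a'
  set π := proj (Subgroup.centralizer Y) (Fx Y Ω) with hπ
  -- 2-elements of `M_a` lie in the preimage of `Q`
  have claimP : ∀ m : Subgroup.centralizer Y, m • a' = a' → (∃ j : ℕ, m ^ 2 ^ j = 1) → m ∈ Q.comap π := by
    rintro m hma ⟨j, hj⟩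
    rw [Subgroup.mem_comap]
    set z := π m with hz
    have hza : z • a' = a' := hma
    have hzj : z ^ 2 ^ j = 1 := by rw [hz, ← map_pow, hj, map_one]
    have hzb : z • b' ≠ a' := by
      intro hh
      apply hab'
      rw [← hza] at hh
      exact (smul_left_cancel z hh).symm
    obtain ⟨q, hq, hqb⟩ := hQ4 b' (z • b') hab'.symm hzb
    have hdb : (q⁻¹ * z) • b' = b' := by rw [mul_smul, ← hqb, inv_smul_smul]
    have hda : (q⁻¹ * z) • a' = a' := by rw [mul_smul, hza, hQ2 _ (Q.inv_mem hq)]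
    have hodd : Odd (orderOf (q⁻¹ * z)) := by
      have h1 := hcI.toClW.odd_two hab'
      refine h1.of_dvd_nat ?_
      exact Subgroup.orderOf_dvd_natCard _ ⟨hda, hdb⟩
    set d := q⁻¹ * z with hd
    have hzq : z = q * d := by rw [hd]; group
    have hdn : ∀ (i : ℕ), ∀ r ∈ Q, d ^ i * r * (d ^ i)⁻¹ ∈ Q := by
      intro i r hr
      have h1 : (d ^ i) • a' = a' := by
        have h2 : d ∈ MulAction.stabilizer _ a' := hda
        exact (MulAction.stabilizer _ a').pow_mem h2 i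
      exact hQ3 _ h1 r hr
    have hpow : ∀ i : ℕ, z ^ i * (d ^ i)⁻¹ ∈ Q := by
      intro i
      induction i with
      | zero => simp [Q.one_mem]
      | succ i ih =>
        have h1 : z ^ (i + 1) * (d ^ (i + 1))⁻¹ = (z ^ i * (d ^ i)⁻¹) * (d ^ i * q * (d ^ i)⁻¹) := by
          have hzd : z * d⁻¹ = q := by
            calc z * d⁻¹ = (q * d) * d⁻¹ := by rw [← hzq]
              _ = q := by group
          calc z ^ (i + 1) * (d ^ (i + 1))⁻¹ = z ^ i * (z * d⁻¹) * (d ^ i)⁻¹ := by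
                rw [pow_succ z i, pow_succ d i, mul_inv_rev]; simp only [mul_assoc]
            _ = (z ^ i * (d ^ i)⁻¹) * (d ^ i * q * (d ^ i)⁻¹) := by
                rw [hzd]; simp only [mul_assoc, inv_mul_cancel_left]
        rw [h1]
        exact Q.mul_mem ih (hdn i q hq)
    have hzo : z ^ orderOf d ∈ Q := by
      have := hpow (orderOf d)
      rwa [pow_orderOf_eq_one, inv_one, mul_one] at this
    have hco : Nat.Coprime (orderOf d) (orderOf z) := by
      have h1 : orderOf z ∣ 2 ^ j := orderOf_dvd_of_pow_eq_one hzj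
      refine Nat.Coprime.coprime_dvd_right h1 ?_
      exact Nat.Coprime.pow_right j (Nat.coprime_two_right.2 hodd)
    obtain ⟨i, hi⟩ := exists_pow_eq_self_of_coprime hco
    rw [← hi]
    exact Q.pow_mem hzo i
  -- the kernel is central
  have hker : ∀ m : Subgroup.centralizer Y, π m = 1 → ∀ n : Subgroup.centralizer Y, n * m = m * n := by
    intro m hm n
    have hmY : (m : G) ∈ Y := by
      intro z hz
      have h1 := (proj_eq_one.1 hm) ⟨z, fun y hy => hy z hz⟩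
      exact congrArg Subtype.val h1
    exact Subtype.ext (Subgroup.mem_centralizer_iff.1 n.2 m hmY).symm
  have hPnil : Group.IsNilpotent (Q.comap π) := by
    haveI := hQ1.isNilpotent
    refine Subgroup.isNilpotent_of_ker_le_center (π.subgroupComap Q) ?_
    intro m hm
    rw [MonoidHom.mem_ker] at hm
    have hm' : π (m : Subgroup.centralizer Y) = 1 := congrArg Subtype.val hm
    rw [Subgroup.mem_center_iff]
    intro n
    exact Subtype.ext (hker m hm' n)
  -- the 2-elements form a subgroup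
  have hmul2 : ∀ m n : Q.comap π, (∃ j : ℕ, m ^ 2 ^ j = 1) → (∃ j : ℕ, n ^ 2 ^ j = 1) → ∃ j : ℕ, (m * n) ^ 2 ^ j = 1 := by
    intro m n hm hn
    obtain ⟨T⟩ : Nonempty (Sylow 2 (Q.comap π)) := inferInstance
    have hTn : (T : Subgroup (Q.comap π)).Normal :=
      ((Group.isNilpotent_of_finite_tfae (G := Q.comap π)).out 0 3 rfl rfl).1 hPnil 2 inferInstance T
    haveI := T.unique_of_normal hTn
    have hmem : ∀ m : Q.comap π, (∃ j : ℕ, m ^ 2 ^ j = 1) → m ∈ (T : Subgroup (Q.comap π)) := by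
      rintro m ⟨j, hj⟩
      have hpg : IsPGroup 2 (Subgroup.zpowers m) := by
        rintro ⟨z, i, rfl⟩
        refine ⟨j, Subtype.ext ?_⟩
        change (m ^ i) ^ 2 ^ j = 1
        rw [← zpow_natCast, ← zpow_mul, mul_comm, zpow_mul, zpow_natCast, hj, one_zpow]
      obtain ⟨T', hT'⟩ := hpg.exists_le_sylow
      have hTT : T' = T := Subsingleton.elim _ _
      rw [← hTT]
      exact hT' (Subgroup.mem_zpowers m)
    have h1 := (T : Subgroup (Q.comap π)).mul_mem (hmem m hm) (hmem n hn)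
    obtain ⟨j, hj⟩ := T.2 ⟨m * n, h1⟩
    exact ⟨j, congrArg Subtype.val hj⟩
  have hFx : ∀ z : Ω, x • z = z → ∀ y ∈ Y, y • z = z := fun z hz y hy => hy z hz
  let S : Subgroup G :=
    { carrier := {s | s ∈ Subgroup.centralizer Y ∧ s • a = a ∧ ∃ j : ℕ, s ^ 2 ^ j = 1}
      one_mem' := ⟨Subgroup.one_mem _, one_smul G a, 0, one_pow _⟩
      mul_mem' := by
        rintro s s' ⟨hs, hsa, j, hj⟩ ⟨hs', hsa', j', hj'⟩
        refine ⟨Subgroup.mul_mem _ hs hs', by rw [mul_smul, hsa', hsa], ?_⟩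
        have h1 : (⟨s, hs⟩ : Subgroup.centralizer Y) ∈ Q.comap π :=
          claimP _ (Fx.ext hsa) ⟨j, Subtype.ext hj⟩
        have h2 : (⟨s', hs'⟩ : Subgroup.centralizer Y) ∈ Q.comap π :=
          claimP _ (Fx.ext hsa') ⟨j', Subtype.ext hj'⟩
        obtain ⟨i, hi⟩ := hmul2 ⟨_, h1⟩ ⟨_, h2⟩ ⟨j, Subtype.ext (Subtype.ext hj)⟩
          ⟨j', Subtype.ext (Subtype.ext hj')⟩
        exact ⟨i, congrArg (fun z : Q.comap π => ((z : Subgroup.centralizer Y) : G)) hi⟩
      inv_mem' := by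
        rintro s ⟨hs, hsa, j, hj⟩
        refine ⟨Subgroup.inv_mem _ hs, by rw [inv_smul_eq_iff, hsa], j, ?_⟩
        rw [inv_pow, hj, inv_one] }
  have hnormY : ∀ g : G, x * g = g * x → ∀ y ∈ Y, g⁻¹ * y * g ∈ Y := by
    intro g hg y hy z hz
    have h1 : x • (g • z) = g • z := by rw [← mul_smul, hg, mul_smul, hz]
    rw [mul_smul, mul_smul, hy _ h1, inv_smul_smul]
  refine ⟨S, ?_, ?_, ?_, ?_, ?_, k, ?_⟩
  · rintro ⟨s, hs, hsa, j, hj⟩
    exact ⟨j, Subtype.ext hj⟩
  · exact fun s hs => hs.2.1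
  · intro s hs
    exact Subgroup.mem_centralizer_iff.1 hs.1 x hxY
  · rintro g hga hgx s ⟨hs, hsa, j, hj⟩
    have hga' : g⁻¹ • a = a := by rw [inv_smul_eq_iff, hga]
    refine ⟨?_, by rw [mul_smul, mul_smul, hga', hsa, hga], j, ?_⟩
    · rw [Subgroup.mem_centralizer_iff]
      intro y hy
      have h1 := Subgroup.mem_centralizer_iff.1 hs _ (hnormY g hgx y hy)
      calc y * (g * s * g⁻¹) = g * ((g⁻¹ * y * g) * s) * g⁻¹ := by group
        _ = (g * s * g⁻¹) * y := by rw [h1]; group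
    · rw [conj_pow, hj]; group
  · intro u v hu hv hxu hxv
    obtain ⟨q, hq, hqu⟩ := hQ4 ⟨u, hFx u hxu⟩ ⟨v, hFx v hxv⟩ (fun hh => hu (congrArg Subtype.val hh))
      (fun hh => hv (congrArg Subtype.val hh))
    obtain ⟨m, hm⟩ := proj_surj q
    obtain ⟨c, d, hc, hd, hcd, ⟨j, hj⟩, hdo⟩ := split 2 Nat.prime_two m
    -- `d` acts trivially
    have hmQ : π m ∈ Q := by rw [hπ, hm]; exact hq
    have hdQ : π d ∈ Q := by
      obtain ⟨i, hi⟩ := hd
      rw [← hi, map_zpow]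
      exact Q.zpow_mem hmQ i
    have hd1 : π d = 1 := by
      obtain ⟨i, hi⟩ := hQ1 ⟨π d, hdQ⟩
      have hi' : (π d) ^ 2 ^ i = 1 := congrArg Subtype.val hi
      have h1 : orderOf (π d) ∣ 2 ^ i := orderOf_dvd_of_pow_eq_one hi'
      have h2 : orderOf (π d) ∣ orderOf d := orderOf_map_dvd π d
      have h3 : Nat.Coprime (2 ^ i) (orderOf d) := by
        refine Nat.Coprime.pow_left i ?_
        exact (Nat.Prime.coprime_iff_not_dvd Nat.prime_two).2 hdo
      have h4 := Nat.dvd_gcd h1 h2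
      rw [h3] at h4
      exact orderOf_eq_one_iff.1 (Nat.dvd_one.1 h4)
    have hca : (c : G) • a = a := by
      have h1 : π c ∈ Q := by
        obtain ⟨i, hi⟩ := hc
        rw [← hi, map_zpow]
        exact Q.zpow_mem hmQ i
      exact congrArg Subtype.val (hQ2 _ h1)
    refine ⟨(c : G), ⟨c.2, hca, j, congrArg Subtype.val hj⟩, ?_⟩
    have h1 : (m : G) • u = v := by
      have := congrArg Subtype.val hqu
      rw [← hm] at this
      exact this
    have h2 : (d : G) • u = u := congrArg Subtype.val ((proj_eq_one.1 hd1) ⟨u, hFx u hxu⟩)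
    have h3 : (m : G) = c * d := congrArg Subtype.val hcd
    rw [← h1, h3, mul_smul, h2]
  · rw [← hk]
    refine Nat.card_congr ?_
    refine ⟨fun u => ⟨⟨u.1, hFx u.1 u.2.1⟩, fun hh => u.2.2 (congrArg Subtype.val hh)⟩,
      fun u => ⟨u.1.1, u.1.2 x hxY, fun hh => u.2 (Fx.ext hh)⟩, fun u => rfl, fun u => rfl⟩

end H18.BD
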