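import Mathlib
import Cfsg.Agent.Lib.H18.BD8
import Cfsg.Agent.Lib.H19.HallNC2

/-!
T-BENDER (Q3), case: no element of prime order of `D` centralises exactly one involution of `G_a`.  Brauer's normal
complement theorem for `(G_a, D)`.
-/

set_option autoImplicit false

namespace H18.BD

open scoped Pointwise

universe u v

variable {G Ω : Type u} [Group G] [MulAction G Ω] [Finite G] [Finite Ω]

/-- the induction hypothesis -/
def IHyp (G : Type u) [Group G] : Prop :=
  ∀ (G' Ω' : Type u) [Group G'] [Finite G'] [Finite Ω'] [MulAction G' Ω'], Nat.card G' < Nat.card G →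
      Cl G' Ω' → Reg G' Ω'

/-- no element of prime order of `D` centralises exactly one involution of `G_a` -/
def NoGam (G : Type u) {Ω : Type u} [Group G] [MulAction G Ω] (a b : Ω) : Prop :=
  ∀ (p : ℕ), p.Prime → ∀ x : G, x • a = a → x • b = b → x ≠ 1 → x ^ p = 1 →
    ∀ t : G, t ≠ 1 → t * t = 1 → t • a = a → x * t = t * x →
      ∃ t' : G, t' ≠ 1 ∧ t' * t' = 1 ∧ t' • a = a ∧ x * t' = t' * x ∧ t ≠ t'

theorem zpowers_smul {x : G} {z : Ω} (hz : x • z = z) : ∀ y ∈ Subgroup.zpowers x, y • z = z := by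
  rintro _ ⟨j, rfl⟩
  have h1 : x ∈ MulAction.stabilizer G z := hz
  exact (MulAction.stabilizer G z).zpow_mem h1 j

theorem zpowers_pgroup {x : G} {p : ℕ} (hxp : x ^ p = 1) : IsPGroup p (Subgroup.zpowers x) := by
  rintro ⟨z, j, rfl⟩
  refine ⟨1, Subtype.ext ?_⟩
  change (x ^ j) ^ p ^ 1 = 1
  rw [pow_one, ← zpow_natCast, ← zpow_mul, mul_comm, zpow_mul, zpow_natCast, hxp, one_zpow]

/-- dichotomy -/
theorem Cl.type_x (h : Cl G Ω) (hT : TProp G Ω) (IH : IHyp G) {a b : Ω} (hab : a ≠ b) (hG : NoGam G a b) {x : G}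
    (hxa : x • a = a) (hxb : x • b = b) (hx1 : x ≠ 1) {p : ℕ} (hp : p.Prime) (hxp : x ^ p = 1) :
    (∀ z : Ω, x • z = z → z = a ∨ z = b) ∨
    ∃ S : Subgroup G, IsPGroup 2 S ∧ (∀ s ∈ S, s • a = a) ∧ (∀ s ∈ S, x * s = s * x) ∧
      (∀ g : G, g • a = a → x * g = g * x → ∀ s ∈ S, g * s * g⁻¹ ∈ S) ∧
      (∀ u v : Ω, u ≠ a → v ≠ a → x • u = u → x • v = v → ∃ s ∈ S, s • u = v) ∧
      ∃ k : ℕ, Nat.card {u : Ω // x • u = u ∧ u ≠ a} = 2 ^ k := by
  by_cases hc : ∃ c : Ω, x • c = c ∧ c ≠ a ∧ c ≠ b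
  · right
    obtain ⟨c, hxc, hca, hcb⟩ := hc
    obtain ⟨t, ht1, ht, hta, htx⟩ := hT p hp (Subgroup.zpowers x) (zpowers_pgroup hxp) ⟨a, b, c, hab, hca.symm,
      hcb.symm, fun y hy => ⟨zpowers_smul hxa y hy, zpowers_smul hxb y hy, zpowers_smul hxc y hy⟩⟩ a
      (zpowers_smul hxa)
    have htx' := htx x (Subgroup.mem_zpowers x)
    obtain ⟨t', ht'1, ht', ht'a, ht'x, htt'⟩ := hG p hp x hxa hxb hx1 hxp t ht1 ht hta htx'
    exact h.loc_S hT IH hab hxa hxb hx1 hp hxp ht1 ht hta htx' ht'1 ht' ht'a ht'x htt'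
  · left
    push_neg at hc
    intro z hz
    by_cases hza : z = a
    · exact Or.inl hza
    · exact Or.inr (hc z hz hza)

/-- fixed points of odd groups centralising `x` -/
theorem Cl.fix_cent (h : Cl G Ω) (hT : TProp G Ω) (IH : IHyp G) {a b : Ω} (hab : a ≠ b) (hG : NoGam G a b) {x : G}
    (hxa : x • a = a) (hxb : x • b = b) (hx1 : x ≠ 1) {p : ℕ} (hp : p.Prime) (hxp : x ^ p = 1) (E : Subgroup G)
    (hEa : ∀ e ∈ E, e • a = a) (hEx : ∀ e ∈ E, e * x = x * e) (hodd : Odd (Nat.card E)) :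
    (∃ u : Ω, u ≠ a ∧ ∀ e ∈ E, e • u = u) ∧
      ∀ u v : Ω, u ≠ a → v ≠ a → x • u = u → x • v = v → (∀ e ∈ E, e • u = u) → (∀ e ∈ E, e • v = v) →
        ∃ c : G, c • a = a ∧ (∀ e ∈ E, e * c = c * e) ∧ c • u = v := by
  rcases h.type_x hT IH hab hG hxa hxb hx1 hp hxp with hα | ⟨S, hS1, hS2, hS3, hS4, hS5, _⟩
  · constructor
    · refine ⟨b, hab.symm, fun e he => ?_⟩
      have h1 : x • (e • b) = e • b := by rw [← mul_smul, ← hEx e he, mul_smul, hxb]
      rcases hα _ h1 with h2 | h2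
      · exfalso
        apply hab
        have h3 := hEa _ (E.inv_mem he)
        calc a = e⁻¹ • a := h3.symm
          _ = e⁻¹ • (e • b) := by rw [h2]
          _ = b := inv_smul_smul _ _
      · exact h2
    · intro u v hu hv hxu hxv _ _
      have hu' : u = b := (hα u hxu).resolve_left hu
      have hv' : v = b := (hα v hxv).resolve_left hv
      exact ⟨1, one_smul G a, fun e _ => by rw [mul_one, one_mul], by rw [hu', hv', one_smul]⟩
  · -- work in the centraliser of `x`
    have hmem : ∀ g : G, g * x = x * g → g ∈ Subgroup.centralizer ({x} : Set G) := by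
      intro g hg
      rw [Subgroup.mem_centralizer_iff]
      intro y hy
      rw [Set.mem_singleton_iff.1 hy, hg]
    let a' : Fx ({x} : Set G) Ω := ⟨a, fun z hz => by rw [Set.mem_singleton_iff.1 hz, hxa]⟩
    let b' : Fx ({x} : Set G) Ω := ⟨b, fun z hz => by rw [Set.mem_singleton_iff.1 hz, hxb]⟩
    have hS' : S ≤ Subgroup.centralizer ({x} : Set G) := fun s hs => hmem s (hS3 s hs).symm
    have hE' : E ≤ Subgroup.centralizer ({x} : Set G) := fun e he => hmem e (hEx e he)
    have hkey := fix_of_regular2 (R := Subgroup.centralizer ({x} : Set G)) (F := Fx ({x} : Set G) Ω) (a := a')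
      (b := b') (fun hh => hab (congrArg Subtype.val hh).symm) (S.subgroupOf _) (E.subgroupOf _)
      (hS1.comap_of_injective _ (Subgroup.subtype_injective _))
      (fun q hq => Fx.ext (hS2 q hq)) (fun e he => Fx.ext (hEa e he))
      (by
        intro e he q hq
        exact hS4 e (hEa e he) (hEx e he).symm q hq)
      (by
        intro u v hu hv
        obtain ⟨s, hs, hsu⟩ := hS5 u.1 v.1 (fun hh => hu (Fx.ext hh)) (fun hh => hv (Fx.ext hh))
          (u.2 x rfl) (v.2 x rfl)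
        exact ⟨⟨s, hS' hs⟩, hs, Fx.ext hsu⟩)
      (by
        have h1 : Nat.card (E.subgroupOf (Subgroup.centralizer ({x} : Set G))) = Nat.card E :=
          Nat.card_congr (Subgroup.subgroupOfEquivOfLe hE').toEquiv
        rw [h1]; exact hodd)
    constructor
    · obtain ⟨⟨u, hu, hEu⟩, _⟩ := hkey
      exact ⟨u.1, fun hh => hu (Fx.ext hh), fun e he => congrArg Subtype.val (hEu ⟨e, hE' he⟩ he)⟩
    · intro u v hu hv hxu hxv hEu hEv
      obtain ⟨q, hq, hqc, hqu⟩ := hkey.2 ⟨u, fun z hz => by rw [Set.mem_singleton_iff.1 hz, hxu]⟩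
        ⟨v, fun z hz => by rw [Set.mem_singleton_iff.1 hz, hxv]⟩ (fun hh => hu (congrArg Subtype.val hh))
        (fun hh => hv (congrArg Subtype.val hh)) (fun e he => Fx.ext (hEu e he)) (fun e he => Fx.ext (hEv e he))
      refine ⟨q, hS2 q hq, fun e he => ?_, congrArg Subtype.val hqu⟩
      exact congrArg Subtype.val (hqc ⟨e, hE' he⟩ he)

theorem card_fix_eq {x : G} {a : Ω} (hxa : x • a = a) :
    Nat.card (MulAction.fixedPoints (Subgroup.zpowers x) Ω) = Nat.card {u : Ω // x • u = u ∧ u ≠ a} + 1 := by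
  have h2 : Nat.card (MulAction.fixedPoints (Subgroup.zpowers x) Ω) = Nat.card {u : Ω // x • u = u} := by
    refine Nat.card_congr (Equiv.subtypeEquivRight ?_)
    intro z
    constructor
    · intro hz
      exact hz ⟨x, Subgroup.mem_zpowers x⟩
    · rintro hz ⟨y, hy⟩
      exact zpowers_smul hz y hy
  rw [h2, card_ne (⟨a, hxa⟩ : {u : Ω // x • u = u})]
  congr 1
  refine Nat.card_congr ⟨fun u => ⟨u.1.1, u.1.2, fun hh => u.2 (Subtype.ext hh)⟩,
    fun u => ⟨⟨u.1, u.2.1⟩, fun hh => u.2.2 (congrArg Subtype.val hh)⟩, fun u => rfl, fun u => rfl⟩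

/-- coprimality -/
theorem Cl.coprime_D (h : Cl G Ω) (hT : TProp G Ω) (IH : IHyp G) {a b : Ω} (hab : a ≠ b) (hG : NoGam G a b) :
    Nat.Coprime (Nat.card ↥(MulAction.stabilizer G a ⊓ MulAction.stabilizer G b)) (Nat.card {x : Ω // x ≠ a}) := by
  by_contra hne
  obtain ⟨p, hp, hpg⟩ := Nat.exists_prime_and_dvd hne
  have hp1 := hpg.trans (Nat.gcd_dvd_left _ _)
  have hp2 : p ∣ Nat.card {x : Ω // x ≠ a} := hpg.trans (Nat.gcd_dvd_right _ _)
  haveI := Fact.mk hp
  obtain ⟨⟨x, hx⟩, hxo⟩ := exists_prime_orderOf_dvd_card'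
    (G := ↥(MulAction.stabilizer G a ⊓ MulAction.stabilizer G b)) p hp1
  have hxo' : orderOf x = p := by
    rw [← hxo]
    exact (Subgroup.orderOf_mk x hx).symm
  have hxa : x • a = a := hx.1
  have hxb : x • b = b := hx.2
  have hx1 : x ≠ 1 := by
    rintro rfl
    rw [orderOf_one] at hxo'
    exact hp.one_lt.ne hxo'
  have hxp : x ^ p = 1 := by rw [← hxo', pow_orderOf_eq_one]
  have hpne2 : p ≠ 2 := by
    rintro rfl
    have h1 : x * x = 1 := by rw [← pow_two, hxp]
    exact hab (h.uniq hx1 h1 hxa hxb)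
  obtain ⟨k, hk⟩ : ∃ k : ℕ, Nat.card {u : Ω // x • u = u ∧ u ≠ a} = 2 ^ k := by
    rcases h.type_x hT IH hab hG hxa hxb hx1 hp hxp with hα | ⟨S, _, _, _, _, _, hk⟩
    · refine ⟨0, ?_⟩
      rw [pow_zero, Nat.card_eq_one_iff_unique]
      refine ⟨⟨fun u v => ?_⟩, ⟨⟨b, hxb, hab.symm⟩⟩⟩
      have h1 := (hα u.1 u.2.1).resolve_left u.2.2
      have h2 := (hα v.1 v.2.1).resolve_left v.2.2
      exact Subtype.ext (h1.trans h2.symm)
    · exact hk
  have h1 := (zpowers_pgroup hxp).card_modEq_card_fixedPoints Ω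
  rw [card_fix_eq hxa, card_ne a, hk] at h1
  have h3 : Nat.card {x : Ω // x ≠ a} ≡ 2 ^ k [MOD p] := Nat.ModEq.add_right_cancel' 1 h1
  have h4 : p ∣ 2 ^ k := (Nat.ModEq.dvd_iff h3 dvd_rfl).1 hp2
  exact hpne2 ((Nat.prime_dvd_prime_iff_eq hp Nat.prime_two).1 (hp.dvd_of_dvd_pow h4))

/-- an element of prime order in a cyclic group -/
theorem exists_prime_pow {y : G} (hy : y ≠ 1) : ∃ (p : ℕ) (j : ℕ), p.Prime ∧ (y ^ j) ^ p = 1 ∧ y ^ j ≠ 1 := by
  obtain ⟨l, hl, hlx⟩ : ∃ l : ℕ, l.Prime ∧ l ∣ orderOf y := by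
    refine Nat.exists_prime_and_dvd ?_
    intro h1
    exact hy (orderOf_eq_one_iff.1 h1)
  obtain ⟨j, hj⟩ := hlx
  have hjpos : 0 < j := by
    rcases Nat.eq_zero_or_pos j with h0 | h0
    · rw [h0, mul_zero] at hj
      exact absurd (orderOf_pos y) (by omega)
    · exact h0
  refine ⟨l, j, hl, ?_, ?_⟩
  · rw [← pow_mul, mul_comm, ← hj, pow_orderOf_eq_one]
  · intro h1
    have h2 := orderOf_dvd_of_pow_eq_one h1
    rw [hj] at h2
    have h3 := Nat.le_of_dvd hjpos h2
    have h4 := hl.two_le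
    nlinarith

/-- **the normal complement** of `D` in `G_a` -/
theorem Cl.exists_Q_noGam (h : Cl G Ω) (hT : TProp G Ω) (IH : IHyp G) {a b : Ω} (hab : a ≠ b)
    (h2 : ∀ c : Ω, c ≠ a → ∃ g : G, g • a = a ∧ g • b = c) (hG : NoGam G a b) :
    ∃ Q : Subgroup G, (∀ q ∈ Q, q • a = a) ∧ (∀ g : G, g • a = a → ∀ q ∈ Q, g * q * g⁻¹ ∈ Q) ∧
      (∀ x y : Ω, x ≠ a → y ≠ a → ∃ q ∈ Q, q • x = y) ∧ (∀ x : Ω, x ≠ a → ∀ q ∈ Q, q • x = x → q = 1) := by
  classical
  set HA : Subgroup G := MulAction.stabilizer G a with hHA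
  set DD : Subgroup G := MulAction.stabilizer G a ⊓ MulAction.stabilizer G b with hDD
  have hDC : DD ≤ HA := inf_le_left
  set H : Subgroup HA := DD.subgroupOf HA with hH
  have hcH : Nat.card H = Nat.card DD := Nat.card_congr (Subgroup.subgroupOfEquivOfLe hDC).toEquiv
  -- the index
  have hidx : H.index = Nat.card {x : Ω // x ≠ a} := by
    have h1 : H = MulAction.stabilizer HA b := by
      ext ⟨x, hx⟩
      rw [Subgroup.mem_subgroupOf, MulAction.mem_stabilizer_iff]
      constructor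
      · intro h2; exact h2.2
      · intro h2; exact ⟨hx, h2⟩
    rw [h1, MulAction.index_stabilizer]
    have h2 : MulAction.orbit HA b = {x : Ω | x ≠ a} := by
      ext x
      constructor
      · rintro ⟨⟨c, hc⟩, rfl⟩ hca
        have hca : c • b = a := hca
        apply hab
        have : c⁻¹ • a = a := by rw [inv_smul_eq_iff]; exact (MulAction.mem_stabilizer_iff.1 hc).symm
        calc a = c⁻¹ • a := this.symm
          _ = c⁻¹ • (c • b) := by rw [hca]
          _ = b := inv_smul_smul _ _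
      · intro hx
        obtain ⟨c, hc, hcb⟩ := h2 x hx
        exact ⟨⟨c, hc⟩, hcb⟩
    rw [h2]
    rfl
  have hcop0 := h.coprime_D hT IH hab hG
  have hcop : Nat.Coprime (Nat.card H) H.index := by rw [hcH, hidx]; exact hcop0
  have hodd : Odd (Nat.card DD) := h.toClW.odd_two hab
  obtain ⟨K, hKn, hK1, hK2⟩ := H19.HallNC.main H hcop (by
    rintro ⟨x, hxC⟩ hx ⟨y, hyC⟩ hy hxy
    obtain ⟨⟨c, hc⟩, hcc⟩ := isConj_iff.1 hxy
    have hcc' : c * x * c⁻¹ = y := congrArg Subtype.val hcc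
    by_cases hy1 : y = 1
    · refine ⟨1, Subgroup.one_mem _, Subtype.ext ?_⟩
      change (1 : G) * x * 1⁻¹ = y
      have : x = c⁻¹ * y * c := by rw [← hcc']; group
      rw [this, hy1]; group
    have hya : y • a = a := hyC
    have hyb : y • b = b := hy.2
    have hca : c • a = a := hc
    obtain ⟨p, j, hp, hyp, hyj⟩ := exists_prime_pow hy1
    have hcb : y • (c • b) = c • b := by
      have hxb : x • b = b := hx.2
      rw [← hcc', mul_smul, mul_smul, inv_smul_smul, hxb]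
    have hpw : ∀ z : Ω, y • z = z → (y ^ j) • z = z := fun z hz =>
      zpowers_smul hz _ (Subgroup.pow_mem _ (Subgroup.mem_zpowers y) j)
    have hcba : c • b ≠ a := by
      intro hh
      apply hab
      have : c⁻¹ • a = a := by rw [inv_smul_eq_iff, hca]
      calc a = c⁻¹ • a := this.symm
        _ = c⁻¹ • (c • b) := by rw [hh]
        _ = b := inv_smul_smul _ _
    have hod : Odd (Nat.card (Subgroup.zpowers y)) := by
      rw [Nat.card_zpowers]
      exact hodd.of_dvd_nat (Subgroup.orderOf_dvd_natCard _ ⟨hya, hyb⟩)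
    obtain ⟨_, hc2⟩ := h.fix_cent hT IH hab hG (hpw a hya) (hpw b hyb) hyj hp hyp (Subgroup.zpowers y)
      (zpowers_smul hya) (by
        rintro _ ⟨i, rfl⟩
        rw [← zpow_natCast, ← zpow_add, ← zpow_add, add_comm]) hod
    obtain ⟨d, hda, hdE, hdb⟩ := hc2 (c • b) b hcba hab.symm (hpw _ hcb) (hpw _ hyb) (zpowers_smul hcb)
      (zpowers_smul hyb)
    have hdy : y * d = d * y := hdE y (Subgroup.mem_zpowers y)
    have hdc : (d * c) • a = a := by rw [mul_smul, hca, hda]
    refine ⟨⟨d * c, hdc⟩, ⟨hdc, ?_⟩, Subtype.ext ?_⟩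
    · change (d * c) • b = b
      rw [mul_smul, hdb]
    · change d * c * x * (d * c)⁻¹ = y
      calc d * c * x * (d * c)⁻¹ = d * (c * x * c⁻¹) * d⁻¹ := by group
        _ = y := by rw [hcc', ← hdy]; group) (by
    intro E p hp hE hEcard
    -- it suffices to find a second fixed point
    have suff : (∃ x : Ω, x ≠ a ∧ ∀ e ∈ E, (e : G) • x = x) →
        ∃ g : HA, E.map (MulAut.conj g).toMonoidHom ≤ H := by
      rintro ⟨x, hx, hEx⟩
      obtain ⟨c, hc, hcx⟩ := h2 x hx
      have hc' : c⁻¹ ∈ HA := HA.inv_mem hc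
      refine ⟨⟨c⁻¹, hc'⟩, ?_⟩
      rintro _ ⟨e, he, rfl⟩
      refine ⟨?_, ?_⟩
      · exact HA.mul_mem (HA.mul_mem hc' e.2) (HA.inv_mem hc')
      · change (c⁻¹ * (e : G) * c⁻¹⁻¹) • b = b
        rw [inv_inv, mul_smul, mul_smul, hcx, hEx e he, ← hcx, inv_smul_smul]
    apply suff
    rw [hcH] at hEcard
    have hEodd : Odd (Nat.card E) := hodd.of_dvd_nat hEcard
    obtain ⟨x₀, hx₀c, hx₀p, k, hk⟩ := hE
    by_cases hx₀ : x₀ = 1
    · -- `E` is a `p`-group
      by_cases hE1 : E = ⊥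
      · refine ⟨b, hab.symm, fun e he => ?_⟩
        rw [hE1, Subgroup.mem_bot] at he
        rw [he]; exact one_smul G b
      have hcardE : Nat.card E = p ^ k := by
        rw [← hk, hx₀, Subgroup.zpowers_one_eq_bot, Subgroup.index_bot]
      have hpE : p ∣ Nat.card E := by
        have hk0 : k ≠ 0 := by
          rintro rfl
          rw [pow_zero] at hcardE
          exact hE1 (Subgroup.card_eq_one.1 hcardE)
        rw [hcardE]
        exact dvd_pow_self p hk0
      have hnp : ¬ p ∣ Nat.card {x : Ω // x ≠ a} := by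
        intro hpd
        have := Nat.dvd_gcd (hpE.trans hEcard) hpd
        rw [hcop0] at this
        exact hp.one_lt.ne' (Nat.dvd_one.1 this)
      have hEp : IsPGroup p (E.map HA.subtype) := by
        refine IsPGroup.of_card (n := k) ?_
        rw [← hcardE]
        exact (Nat.card_congr (E.equivMapOfInjective _ HA.subtype_injective).toEquiv).symm
      obtain ⟨x, hx, hxE⟩ := fix_of_pgroup h (b := b) hp hnp hEp (by
        rintro _ ⟨e, _, rfl⟩
        exact e.2)
      exact ⟨x, hx, fun e he => hxE e ⟨e, he, rfl⟩⟩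
    · -- a central element of prime order
      obtain ⟨l, j, hl, hul, hu1⟩ := exists_prime_pow hx₀
      have hlE : l ∣ Nat.card E := by
        have h1 : orderOf (x₀ ^ j) ∣ l := orderOf_dvd_of_pow_eq_one hul
        rcases (Nat.dvd_prime hl).1 h1 with h3 | h3
        · exact absurd (orderOf_eq_one_iff.1 h3) hu1
        · rw [← h3]; exact orderOf_dvd_natCard _
      set u : E := x₀ ^ j with hu
      have hnp : ¬ l ∣ Nat.card {x : Ω // x ≠ a} := by
        intro hpd
        have := Nat.dvd_gcd (hlE.trans hEcard) hpd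
        rw [hcop0] at this
        exact hl.one_lt.ne' (Nat.dvd_one.1 this)
      -- `u` fixes a second point
      have huC : (((u : HA)) : G) ∈ HA := (u : HA).2
      have hup : ((u : HA) : G) ^ l = 1 := by
        have := congrArg (fun z : E => (((z : HA)) : G)) hul
        simpa using this
      obtain ⟨x, hx, hux⟩ := fix_of_pgroup h (b := b) hl hnp (zpowers_pgroup hup)
        (zpowers_smul (MulAction.mem_stabilizer_iff.1 huC))
      obtain ⟨c', hc', hcx'⟩ := h2 x hx
      have hc'H : c'⁻¹ ∈ HA := HA.inv_mem hc'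
      set c : G := c'⁻¹ with hcdef
      have hc : c • a = a := hc'H
      have hcx : c • x = b := by rw [hcdef, ← hcx', inv_smul_smul]
      have hcb : c⁻¹ • b = x := by rw [← hcx, inv_smul_smul]
      have hca' : c⁻¹ • a = a := by rw [inv_smul_eq_iff, hc]
      have hua : ((u : HA) : G) • a = a := huC
      -- conjugate
      have hu'a : (c * ((u : HA) : G) * c⁻¹) • a = a := by
        rw [mul_smul, mul_smul, hca', hua, hc]
      have hu'b : (c * ((u : HA) : G) * c⁻¹) • b = b := by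
        rw [mul_smul, mul_smul, hcb, hux _ (Subgroup.mem_zpowers _), hcx]
      set E1 : Subgroup G := (E.map HA.subtype).map (MulAut.conj c).toMonoidHom with hE1
      have hE1a : ∀ e ∈ E1, e • a = a := by
        rintro _ ⟨_, ⟨e, he, rfl⟩, rfl⟩
        change (c * (e : G) * c⁻¹) • a = a
        have hea : (e : G) • a = a := e.2
        rw [mul_smul, mul_smul, hca', hea, hc]
      have hE1odd : Odd (Nat.card E1) := by
        refine hEodd.of_dvd_nat ?_
        exact (Subgroup.card_map_dvd _ _).trans (Subgroup.card_map_dvd _ _)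
      obtain ⟨⟨y, hy, hyE⟩, _⟩ := h.fix_cent hT IH hab hG hu'a hu'b (by
          intro h1
          apply hu1
          apply Subtype.ext
          apply Subtype.ext
          change ((u : HA) : G) = 1
          calc ((u : HA) : G) = c⁻¹ * (c * ((u : HA) : G) * c⁻¹) * c := by group
            _ = 1 := by rw [h1]; group) hl (by
          rw [conj_pow, hup]; group) E1 hE1a (by
          rintro _ ⟨_, ⟨e, he, rfl⟩, rfl⟩
          have h5 : (⟨e, he⟩ : E) * u = u * ⟨e, he⟩ := by
            rw [hu]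
            have := Subgroup.mem_center_iff.1 ((Subgroup.center E).pow_mem hx₀c j) ⟨e, he⟩
            exact this
          have h6 : (e : G) * ((u : HA) : G) = ((u : HA) : G) * e := by
            have := congrArg (fun z : E => (((z : HA)) : G)) h5
            simpa using this
          change (c * (e : G) * c⁻¹) * (c * ((u : HA) : G) * c⁻¹) =
            (c * ((u : HA) : G) * c⁻¹) * (c * (e : G) * c⁻¹)
          calc (c * (e : G) * c⁻¹) * (c * ((u : HA) : G) * c⁻¹) = c * ((e : G) * ((u : HA) : G)) * c⁻¹ := by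
                group
            _ = (c * ((u : HA) : G) * c⁻¹) * (c * (e : G) * c⁻¹) := by rw [h6]; group) hE1odd
      refine ⟨c⁻¹ • y, ?_, ?_⟩
      · intro hh
        apply hy
        rw [inv_smul_eq_iff] at hh
        rw [hh, hc]
      · intro e he
        have h7 := hyE (c * (e : G) * c⁻¹) ⟨_, ⟨e, he, rfl⟩, rfl⟩
        rw [mul_smul, mul_smul] at h7
        rw [eq_inv_smul_iff, h7])
  -- the complement
  have hcomp : Subgroup.IsComplement' K H := by
    refine Subgroup.isComplement'_of_disjoint_and_mul_eq_univ (disjoint_iff.2 hK2) ?_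
    rw [← Subgroup.normal_mul, hK1]; rfl
  have hreg0 : ∀ q ∈ K, (q : G) • b = b → q = 1 := by
    intro q hq hqb
    have : q ∈ K ⊓ H := ⟨hq, ⟨q.2, hqb⟩⟩
    rw [hK2, Subgroup.mem_bot] at this
    exact this
  refine ⟨K.map HA.subtype, ?_, ?_, ?_, ?_⟩
  · rintro _ ⟨q, _, rfl⟩
    exact q.2
  · rintro g hg _ ⟨q, hq, rfl⟩
    exact ⟨_, hKn.conj_mem q hq ⟨g, hg⟩, rfl⟩
  · have key : ∀ y : Ω, y ≠ a → ∃ q ∈ K.map HA.subtype, q • b = y := by
      intro y hy
      obtain ⟨c, hc, hcb⟩ := h2 y hy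
      have h1 : (⟨c, hc⟩ : HA) ∈ ((K : Set HA) * (H : Set HA)) := by
        rw [← Subgroup.normal_mul, hK1]; trivial
      obtain ⟨q, hq, d, hd, hqd⟩ := h1
      refine ⟨q, ⟨q, hq, rfl⟩, ?_⟩
      have h2 : (q : G) * d = c := congrArg Subtype.val hqd
      have h3 : (d : G) • b = b := hd.2
      rw [← hcb, ← h2, mul_smul, h3]
    intro x y hx hy
    obtain ⟨q, hq, hqx⟩ := key x hx
    obtain ⟨r, hr, hry⟩ := key y hy
    refine ⟨r * q⁻¹, Subgroup.mul_mem _ hr (Subgroup.inv_mem _ hq), ?_⟩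
    rw [mul_smul, ← hqx, inv_smul_smul, hry]
  · rintro x hx _ ⟨q, hq, rfl⟩ hqx
    obtain ⟨c, hc, hcx⟩ := h2 x hx
    have h1 := hKn.conj_mem q hq ⟨c⁻¹, HA.inv_mem hc⟩
    have h2 := hreg0 _ h1 (by
      change (c⁻¹ * (q : G) * c⁻¹⁻¹) • b = b
      have hqx' : (q : G) • x = x := hqx
      rw [inv_inv, mul_smul, mul_smul, hcx, hqx', ← hcx, inv_smul_smul])
    have h3 : c⁻¹ * (q : G) * c⁻¹⁻¹ = 1 := congrArg Subtype.val h2
    change (q : G) = 1
    calc (q : G) = c * (c⁻¹ * (q : G) * c⁻¹⁻¹) * c⁻¹ := by group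
      _ = 1 := by rw [h3]; group

end H18.BD
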