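import Mathlib
import Cfsg.Agent.Lib.H70.ConjP3
import Cfsg.Agent.Lib.H5.ZStar
import Cfsg.Agent.Lib.H37.QuadCore
import Cfsg.Agent.Lib.H18.OddOrder
import Cfsg.Agent.Lib.H68.Isolated

set_option autoImplicit false
open Subgroup Cfsg
open scoped commutatorElement Pointwise

namespace H18.ConjPSyl

open H70.ConjP

universe u

/-- structure of a nonabelian group of order `p ^ 3` -/
theorem cube_data {P : Type*} [Group P] [Finite P] {p : ℕ} [hp : Fact p.Prime]
    (hc : Nat.card P = p ^ 3) (hna : ¬ IsMulCommutative P) :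
    Nat.card (center P) = p ∧ ∀ a b : P, ⁅a, b⁆ ∈ center P := by
  have hP : IsPGroup p P := IsPGroup.of_card hc
  haveI : Nontrivial P := by
    rw [← Finite.one_lt_card_iff_nontrivial, hc]
    exact Nat.one_lt_pow (by norm_num) hp.out.one_lt
  have hnot : ¬ ∀ a b : P, a * b = b * a := by
    intro h
    exact hna (isMulCommutative_iff.mpr h)
  have hdvd : Nat.card (center P) ∣ p ^ 3 := hc ▸ Subgroup.card_subgroup_dvd_card _
  obtain ⟨k, hk3, hk⟩ := (Nat.dvd_prime_pow hp.out).mp hdvd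
  have hnt := hP.center_nontrivial
  have hk0 : k ≠ 0 := by
    rintro rfl
    rw [pow_zero] at hk
    exact (Finite.one_lt_card_iff_nontrivial.mpr hnt).ne' hk
  have hmul := Subgroup.card_eq_card_quotient_mul_card_subgroup (center P)
  have hk1 : k = 1 := by
    by_contra hne
    have h2 : k = 2 ∨ k = 3 := by omega
    have hcyc : IsCyclic (P ⧸ center P) := by
      rcases h2 with rfl | rfl
      · have h1 : Nat.card (P ⧸ center P) = p := by
          rw [hc, hk] at hmul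
          have h3 : p ^ 3 = p * p ^ 2 := by ring
          rw [h3] at hmul
          exact (Nat.eq_of_mul_eq_mul_right (by positivity [hp.out.pos]) hmul).symm
        exact isCyclic_of_prime_card h1
      · have h1 : Nat.card (P ⧸ center P) = 1 := by
          rw [hc, hk] at hmul
          have h3 : p ^ 3 = 1 * p ^ 3 := by ring
          nth_rewrite 1 [h3] at hmul
          exact (Nat.eq_of_mul_eq_mul_right (pow_pos hp.out.pos 3) hmul).symm
        haveI := (Nat.card_eq_one_iff_unique.mp h1).1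
        infer_instance
    apply hnot
    exact commutative_of_cyclic_center_quotient (QuotientGroup.mk' (center P)) (by
      rw [QuotientGroup.ker_mk'])
  subst hk1
  rw [pow_one] at hk
  refine ⟨hk, fun a b => ?_⟩
  have h1 : Nat.card (P ⧸ center P) = p ^ 2 := by
    rw [hc, hk] at hmul
    have h3 : p ^ 3 = p ^ 2 * p := by ring
    rw [h3] at hmul
    exact (Nat.eq_of_mul_eq_mul_right hp.out.pos hmul).symm
  have h2 := IsPGroup.isMulCommutative_of_card_eq_prime_sq h1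
  rw [← QuotientGroup.eq_one_iff, commutatorElement_def]
  have h4 := (isMulCommutative_iff.mp h2) (a : P ⧸ center P) (b : P ⧸ center P)
  have h5 : ((a * b * a⁻¹ * b⁻¹ : P) : P ⧸ center P) = (a : P ⧸ center P) * b * (a : P ⧸ center P)⁻¹ * (b : P ⧸ center P)⁻¹ := rfl
  rw [h5, h4]
  group

variable {G : Type u} [Group G] [Finite G]

/-- an element `w` whose square inverts `x`, if the Sylow 2-subgroups are `Q₈`, yields an involution inverting
`x` -/
theorem exists_involution (T : Sylow 2 G) (hT : ∀ t ∈ (T : Subgroup G), t ^ 4 = 1) {w x : G}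
    (hw : w ^ 2 * x * (w ^ 2)⁻¹ = x⁻¹) (hx : x⁻¹ ≠ x) :
    ∃ t : G, t ^ 4 = 1 ∧ t ^ 2 ≠ 1 ∧ t ^ 2 * x * (t ^ 2)⁻¹ = x⁻¹ ∧ ∃ g : G, g * t * g⁻¹ ∈ (T : Subgroup G) := by
  obtain ⟨k, m, hm2, hkm⟩ := Nat.exists_eq_two_pow_mul_odd (orderOf_pos w).ne'
  -- `t = w ^ m`
  have hconj : ∀ j : ℕ, Odd j → (w ^ 2) ^ j * x * ((w ^ 2) ^ j)⁻¹ = x⁻¹ := by
    rintro j ⟨i, rfl⟩
    have h4 : ∀ i : ℕ, (w ^ 2) ^ (2 * i) * x * ((w ^ 2) ^ (2 * i))⁻¹ = x := by
      intro i
      induction i with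
      | zero => simp
      | succ i ih =>
        have e1 : (w ^ 2) ^ (2 * (i + 1)) = w ^ 2 * (w ^ 2 * (w ^ 2) ^ (2 * i)) := by
          rw [← pow_succ', ← pow_succ']; congr 1
        rw [e1]
        have e2 : w ^ 2 * (w ^ 2 * (w ^ 2) ^ (2 * i)) * x * (w ^ 2 * (w ^ 2 * (w ^ 2) ^ (2 * i)))⁻¹
            = w ^ 2 * (w ^ 2 * ((w ^ 2) ^ (2 * i) * x * ((w ^ 2) ^ (2 * i))⁻¹) * (w ^ 2)⁻¹) * (w ^ 2)⁻¹ := by
          group
        rw [e2, ih, hw]
        have e3 : w ^ 2 * x⁻¹ * (w ^ 2)⁻¹ = (w ^ 2 * x * (w ^ 2)⁻¹)⁻¹ := by group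
        rw [e3, hw, inv_inv]
    have e1 : (w ^ 2) ^ (2 * i + 1) = w ^ 2 * (w ^ 2) ^ (2 * i) := by rw [← pow_succ']
    rw [e1]
    have e2 : w ^ 2 * (w ^ 2) ^ (2 * i) * x * (w ^ 2 * (w ^ 2) ^ (2 * i))⁻¹
        = w ^ 2 * ((w ^ 2) ^ (2 * i) * x * ((w ^ 2) ^ (2 * i))⁻¹) * (w ^ 2)⁻¹ := by group
    rw [e2, h4, hw]
  have ht2 : (w ^ m) ^ 2 = (w ^ 2) ^ m := by rw [← pow_mul, ← pow_mul, mul_comm]
  have hpt : IsPGroup 2 (zpowers (w ^ m)) := by
    refine IsPGroup.of_card (n := k) ?_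
    rw [Nat.card_zpowers, orderOf_pow, hkm]
    rw [Nat.gcd_eq_right (Dvd.intro_left _ rfl)]
    exact Nat.mul_div_cancel _ (Nat.pos_of_ne_zero (by rintro rfl; simp at hm2))
  obtain ⟨Q, hQ⟩ := hpt.exists_le_sylow
  obtain ⟨g, hg⟩ := MulAction.exists_smul_eq G Q T
  have htQ : w ^ m ∈ (Q : Subgroup G) := hQ (mem_zpowers _)
  have h5 : g * w ^ m * g⁻¹ ∈ (T : Subgroup G) := by
    rw [← hg]
    show g * w ^ m * g⁻¹ ∈ MulAut.conj g • (Q : Subgroup G)
    exact ⟨w ^ m, htQ, rfl⟩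
  have h6 := hT _ h5
  rw [conj_pow] at h6
  have h7 : (w ^ m) ^ 4 = 1 := by
    have := congrArg (fun y => g⁻¹ * y * g) h6
    simpa [mul_assoc] using this
  refine ⟨w ^ m, h7, ?_, ?_, g, h5⟩
  · intro h8
    rw [ht2] at h8
    have h9 := hconj m hm2
    rw [h8] at h9
    simp at h9
    exact hx h9.symm
  · rw [ht2]
    exact hconj m hm2

/-- the element swapping the two lines of the normal four-group-like subgroup -/
theorem exists_w {p : ℕ} [hp : Fact p.Prime] (h : CP p G) (P : Sylow p G) (hna : ¬ IsMulCommutative P)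
    (hc : Nat.card P = p ^ 3) (hexp : ∀ y ∈ (P : Subgroup G), y ^ p = 1) :
    ∃ x w : G, orderOf x = p ∧ w ^ 2 * x * (w ^ 2)⁻¹ = x⁻¹ := by
  obtain ⟨hZc, hcomm⟩ := cube_data (P := (P : Subgroup G)) hc hna
  set Z : Subgroup G := (center (P : Subgroup G)).map (P : Subgroup G).subtype with hZ
  have hZle : Z ≤ P := Subgroup.map_subtype_le _
  have hZcard : Nat.card Z = p := by
    rw [hZ, Subgroup.card_map_of_injective (Subtype.coe_injective)]
    exact hZc
  have hZmem : ∀ y : G, y ∈ Z ↔ y ∈ (P : Subgroup G) ∧ ∀ q ∈ (P : Subgroup G), q * y = y * q := by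
    intro y
    constructor
    · rintro ⟨⟨y', hy'⟩, hyc, rfl⟩
      refine ⟨hy', fun q hq => ?_⟩
      exact congrArg Subtype.val (mem_center_iff.mp hyc ⟨q, hq⟩)
    · rintro ⟨hyP, hy⟩
      refine ⟨⟨y, hyP⟩, mem_center_iff.mpr fun q => Subtype.ext (hy q q.2), rfl⟩
  have hcomm' : ∀ a ∈ (P : Subgroup G), ∀ b ∈ (P : Subgroup G), a * b * a⁻¹ * b⁻¹ ∈ Z := by
    intro a ha b hb
    exact ⟨⁅(⟨a, ha⟩ : (P : Subgroup G)), ⟨b, hb⟩⁆, hcomm _ _, rfl⟩
  have horder : ∀ y ∈ (P : Subgroup G), y ≠ 1 → orderOf y = p := fun y hy hy1 =>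
    orderOf_eq_prime (hexp y hy) hy1
  -- a noncentral element `x`
  obtain ⟨x, hxP, hxZ⟩ : ∃ x ∈ (P : Subgroup G), x ∉ Z := by
    by_contra hcon
    push Not at hcon
    have hle : (P : Subgroup G) ≤ Z := hcon
    have := Subgroup.card_le_of_le hle
    rw [hZcard, hc] at this
    have h2 : p ^ 1 < p ^ 3 := Nat.pow_lt_pow_right hp.out.one_lt (by norm_num)
    rw [pow_one] at h2
    omega
  obtain ⟨a, haP, hax⟩ : ∃ a ∈ (P : Subgroup G), a * x ≠ x * a := by
    by_contra hcon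
    push Not at hcon
    exact hxZ ((hZmem x).mpr ⟨hxP, hcon⟩)
  set z : G := a * x * a⁻¹ * x⁻¹ with hz
  have hzZ : z ∈ Z := hcomm' a haP x hxP
  have hz1 : z ≠ 1 := by
    intro h1
    apply hax
    have := congrArg (fun y => y * x * a) h1
    simpa [hz, mul_assoc] using this
  have hzP : z ∈ (P : Subgroup G) := hZle hzZ
  have hx1 : x ≠ 1 := by rintro rfl; exact hxZ (one_mem _)
  have hzo : orderOf z = p := horder z hzP hz1
  have hxo : orderOf x = p := horder x hxP hx1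
  have hZeq : zpowers z = Z := by
    apply Subgroup.eq_of_le_of_card_ge (zpowers_le.mpr hzZ)
    rw [hZcard, Nat.card_zpowers, hzo]
  have hzc : ∀ q ∈ (P : Subgroup G), q * z = z * q := ((hZmem z).mp hzZ).2
  obtain ⟨g, hg⟩ := h (zpowers z) (zpowers x) (IsPGroup.of_card (n := 1) (by rw [Nat.card_zpowers, hzo, pow_one]))
    (IsPGroup.of_card (n := 1) (by rw [Nat.card_zpowers, hxo, pow_one]))
    (by rw [Nat.card_zpowers, Nat.card_zpowers, hzo, hxo])
  have hgP : ((g • P : Sylow p G) : Subgroup G) ≤ centralizer ({x} : Set G) := by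
    intro y hy
    have hxm : x ∈ (zpowers z).map (MulAut.conj g).toMonoidHom := hg ▸ mem_zpowers x
    obtain ⟨v, hv, hvx⟩ := hxm
    obtain ⟨y', hy', rfl⟩ : y ∈ MulAut.conj g • (P : Subgroup G) := hy
    rw [mem_centralizer_singleton_iff]
    have h3 : y' * v = v * y' := by
      obtain ⟨i, rfl⟩ := hv
      exact (Commute.zpow_right (show Commute y' z from hzc y' hy') i).eq
    rw [← hvx]
    show g * y' * g⁻¹ * (g * v * g⁻¹) = g * v * g⁻¹ * (g * y' * g⁻¹)
    calc g * y' * g⁻¹ * (g * v * g⁻¹) = g * (y' * v) * g⁻¹ := by group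
      _ = g * (v * y') * g⁻¹ := by rw [h3]
      _ = _ := by group
  have hzx : x * z = z * x := hzc x hxP
  obtain ⟨c, hcC, hcz⟩ := H68.Isolated.exists_conj_le_of_le (g • P) (centralizer ({x} : Set G)) hgP (zpowers z)
    (by rw [zpowers_le, mem_centralizer_singleton_iff]; exact hzx.symm)
    (IsPGroup.of_card (n := 1) (by rw [Nat.card_zpowers, hzo, pow_one]))
  have hcx : c * x = x * c := by rwa [mem_centralizer_singleton_iff] at hcC
  -- `y' = (c g)⁻¹ z (c g)` in `P`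
  set k : G := c * g with hk
  have hy'P : k⁻¹ * z * k ∈ (P : Subgroup G) := by
    have h1 : c⁻¹ * z * c ∈ (g • P : Sylow p G) := hcz z (mem_zpowers z)
    have h2 : c⁻¹ * z * c ∈ MulAut.conj g • (P : Subgroup G) := h1
    obtain ⟨y, hy, hyc⟩ := h2
    have h3 : g * y * g⁻¹ = c⁻¹ * z * c := hyc
    have h4 : y = k⁻¹ * z * k := by
      rw [hk]
      calc y = g⁻¹ * (g * y * g⁻¹) * g := by group
        _ = g⁻¹ * (c⁻¹ * z * c) * g := by rw [h3]
        _ = _ := by group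
    rw [← h4]; exact hy
  -- conjugation by `k` sends `Z` to `zpowers x`
  have hkZ : ∀ v ∈ Z, k * v * k⁻¹ ∈ zpowers x := by
    intro v hv
    rw [← hZeq] at hv
    have h1 : g * v * g⁻¹ ∈ zpowers x := by rw [hg]; exact ⟨v, hv, rfl⟩
    obtain ⟨i, hi⟩ := h1
    have h2 : x ^ i = g * v * g⁻¹ := hi
    refine ⟨i, ?_⟩
    show x ^ i = k * v * k⁻¹
    have h3 : c * x ^ i = x ^ i * c := (Commute.zpow_right (show Commute c x from hcx) i).eq
    calc x ^ i = c * x ^ i * c⁻¹ := by rw [h3]; group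
      _ = c * (g * v * g⁻¹) * c⁻¹ := by rw [h2]
      _ = _ := by rw [hk]; group
  have hzx' : z ∉ zpowers x := by
    intro hmem
    apply hxZ
    have h1 : zpowers z = zpowers x := by
      apply Subgroup.eq_of_le_of_card_ge (zpowers_le.mpr hmem)
      rw [Nat.card_zpowers, Nat.card_zpowers, hzo, hxo]
    rw [← hZeq, h1]
    exact mem_zpowers x
  have hy'Z : k⁻¹ * z * k ∉ Z := by
    intro hmem
    have h1 := hkZ _ hmem
    apply hzx'
    have h2 : k * (k⁻¹ * z * k) * k⁻¹ = z := by group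
    rwa [h2] at h1
  obtain ⟨b0, hb0P, hb0⟩ : ∃ b0 ∈ (P : Subgroup G), b0 * (k⁻¹ * z * k) ≠ (k⁻¹ * z * k) * b0 := by
    by_contra hcon
    push Not at hcon
    exact hy'Z ((hZmem _).mpr ⟨hy'P, hcon⟩)
  have hb0Z := hcomm' b0 hb0P _ hy'P
  set b : G := k * b0 * k⁻¹ with hb
  have hbz : b * z * b⁻¹ * z⁻¹ ∈ zpowers x := by
    have h1 := hkZ _ hb0Z
    have h2 : k * (b0 * (k⁻¹ * z * k) * b0⁻¹ * (k⁻¹ * z * k)⁻¹) * k⁻¹ = b * z * b⁻¹ * z⁻¹ := by
      rw [hb]; group
    rwa [h2] at h1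
  have hbz1 : b * z * b⁻¹ * z⁻¹ ≠ 1 := by
    intro h1
    apply hb0
    have h2 : k * (b0 * (k⁻¹ * z * k) * b0⁻¹ * (k⁻¹ * z * k)⁻¹) * k⁻¹ = 1 := by
      rw [← h1, hb]; group
    have h3 : b0 * (k⁻¹ * z * k) * b0⁻¹ * (k⁻¹ * z * k)⁻¹ = 1 := by
      have := congrArg (fun y => k⁻¹ * y * k) h2
      simpa only [mul_assoc, inv_mul_cancel_left, inv_mul_cancel, mul_one, one_mul, mul_inv_cancel,
        inv_mul_cancel_right, mul_inv_cancel_right] using this
    have h4 := congrArg (fun y => y * (k⁻¹ * z * k) * b0) h3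
    have h5 : b0 * (k⁻¹ * z * k) * b0⁻¹ * (k⁻¹ * z * k)⁻¹ * (k⁻¹ * z * k) * b0 = b0 * (k⁻¹ * z * k) := by
      group
    rw [← h5, h4]; group
  -- `b` centralizes `x`
  have hbx : b * x = x * b := by
    have hxm : x ∈ (zpowers z).map (MulAut.conj g).toMonoidHom := hg ▸ mem_zpowers x
    obtain ⟨v, hv, hvx⟩ := hxm
    have hvx' : g * v * g⁻¹ = x := hvx
    have h3 : b0 * v = v * b0 := by
      obtain ⟨i, rfl⟩ := hv
      exact (Commute.zpow_right (show Commute b0 z from hzc b0 hb0P) i).eq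
    have h4 : x = k * v * k⁻¹ := by
      calc x = c * x * c⁻¹ := by rw [hcx]; group
        _ = c * (g * v * g⁻¹) * c⁻¹ := by rw [hvx']
        _ = _ := by rw [hk]; group
    rw [h4, hb]
    calc k * b0 * k⁻¹ * (k * v * k⁻¹) = k * (b0 * v) * k⁻¹ := by group
      _ = k * (v * b0) * k⁻¹ := by rw [h3]
      _ = _ := by group
  -- a power `b'` of `b`
  obtain ⟨i, hi⟩ : ∃ i : ℕ, (b * z * b⁻¹ * z⁻¹) ^ i = x⁻¹ := by
    have ho : orderOf (b * z * b⁻¹ * z⁻¹) = p := by
      apply orderOf_eq_prime _ hbz1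
      obtain ⟨j, hj⟩ := hbz
      have hj' : x ^ j = b * z * b⁻¹ * z⁻¹ := hj
      rw [← hj', ← zpow_natCast, ← zpow_mul, mul_comm, zpow_mul, zpow_natCast, ← hxo, pow_orderOf_eq_one,
        one_zpow]
    have h1 : zpowers (b * z * b⁻¹ * z⁻¹) = zpowers x := by
      apply Subgroup.eq_of_le_of_card_ge (zpowers_le.mpr hbz)
      rw [Nat.card_zpowers, Nat.card_zpowers, ho, hxo]
    have h2 : x⁻¹ ∈ zpowers (b * z * b⁻¹ * z⁻¹) := by rw [h1]; exact inv_mem (mem_zpowers x)
    rw [← mem_powers_iff_mem_zpowers] at h2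
    obtain ⟨i, hi⟩ := h2
    exact ⟨i, hi⟩
  have hcommx : (b * z * b⁻¹ * z⁻¹) * b = b * (b * z * b⁻¹ * z⁻¹) := by
    obtain ⟨j, hj⟩ := hbz
    have hj' : x ^ j = b * z * b⁻¹ * z⁻¹ := hj
    rw [← hj']
    exact (Commute.zpow_right (show Commute b x from hbx) j).eq.symm
  have hpow : ∀ i : ℕ, b ^ i * z * (b ^ i)⁻¹ = (b * z * b⁻¹ * z⁻¹) ^ i * z := by
    intro i
    induction i with
    | zero => simp
    | succ i ih =>
      set e := b * z * b⁻¹ * z⁻¹ with he
      have hce : Commute b e := hcommx.symm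
      have h1 : b * z * b⁻¹ = e * z := by rw [he]; group
      calc b ^ (i + 1) * z * (b ^ (i + 1))⁻¹ = b * (b ^ i * z * (b ^ i)⁻¹) * b⁻¹ := by
            rw [pow_succ']; group
        _ = b * (e ^ i * z) * b⁻¹ := by rw [ih]
        _ = (b * e ^ i) * z * b⁻¹ := by group
        _ = (e ^ i * b) * z * b⁻¹ := by rw [(hce.pow_right i).eq]
        _ = e ^ i * (b * z * b⁻¹) := by group
        _ = e ^ i * (e * z) := by rw [h1]
        _ = e ^ (i + 1) * z := by rw [pow_succ]; group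
  set b' := b ^ i with hb'
  have hb'z : b' * z * b'⁻¹ = x⁻¹ * z := by rw [hpow i, hi]
  have hb'x : b' * x * b'⁻¹ = x := by
    have h9 : b' * x = x * b' := (Commute.pow_left (show Commute b x from hbx) i).eq
    rw [h9, mul_inv_cancel_right]
  have hax' : a * x * a⁻¹ = z * x := by rw [hz]; group
  have haz : a * z * a⁻¹ = z := by rw [hzc a haP]; group
  refine ⟨x, a * b' * a, hxo, ?_⟩
  have h1 : (a * b' * a) * x * (a * b' * a)⁻¹ = z := by
    calc (a * b' * a) * x * (a * b' * a)⁻¹ = a * (b' * (a * x * a⁻¹) * b'⁻¹) * a⁻¹ := by group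
      _ = a * (b' * (z * x) * b'⁻¹) * a⁻¹ := by rw [hax']
      _ = a * ((b' * z * b'⁻¹) * (b' * x * b'⁻¹)) * a⁻¹ := by group
      _ = a * (x⁻¹ * z * x) * a⁻¹ := by rw [hb'z, hb'x]
      _ = a * (x⁻¹ * (x * z)) * a⁻¹ := by rw [mul_assoc x⁻¹, hzx]
      _ = a * z * a⁻¹ := by group
      _ = z := haz
  have h2 : (a * b' * a) * z * (a * b' * a)⁻¹ = x⁻¹ := by
    calc (a * b' * a) * z * (a * b' * a)⁻¹ = a * (b' * (a * z * a⁻¹) * b'⁻¹) * a⁻¹ := by group
      _ = a * (b' * z * b'⁻¹) * a⁻¹ := by rw [haz]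
      _ = a * (x⁻¹ * z) * a⁻¹ := by rw [hb'z]
      _ = (a * x * a⁻¹)⁻¹ * (a * z * a⁻¹) := by group
      _ = (z * x)⁻¹ * z := by rw [hax', haz]
      _ = x⁻¹ := by group
  calc (a * b' * a) ^ 2 * x * ((a * b' * a) ^ 2)⁻¹
      = (a * b' * a) * ((a * b' * a) * x * (a * b' * a)⁻¹) * (a * b' * a)⁻¹ := by rw [pow_two]; group
    _ = x⁻¹ := by rw [h1, h2]

theorem q8_pow (q : QuaternionGroup 2) : q ^ 4 = 1 := by
  revert q; decide

theorem q8_unique (q r : QuaternionGroup 2) (hq : q ^ 2 = 1) (hq1 : q ≠ 1) (hr : r ^ 2 = 1) (hr1 : r ≠ 1) :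
    q = r := by
  revert q r; decide

/-- an element of odd prime order `p` lies in an odd order normal subgroup -/
theorem exists_odd_normal {p : ℕ} [hp : Fact p.Prime] (hp2 : p ≠ 2) (h2 : CP 2 G) {x w : G} (hx : orderOf x = p)
    (hw : w ^ 2 * x * (w ^ 2)⁻¹ = x⁻¹) :
    ∃ N : Subgroup G, N.Normal ∧ Odd (Nat.card N) ∧ p ∣ Nat.card N := by
  haveI : Fact (Nat.Prime 2) := ⟨Nat.prime_two⟩
  have hp3 : 3 ≤ p := by
    have := hp.out.two_le
    omega
  have hpodd : Odd p := hp.out.odd_of_ne_two hp2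
  have hxx : x⁻¹ ≠ x := by
    intro h
    have h1 : x ^ 2 = 1 := by
      rw [pow_two]; nth_rewrite 1 [← h]; group
    have h3 := orderOf_dvd_of_pow_eq_one h1
    rw [hx] at h3
    exact absurd (Nat.le_of_dvd (by norm_num) h3) (by omega)
  set T : Sylow 2 G := default with hT
  rcases CP.main4023 h2 T with hc | he | ⟨-, ⟨e⟩⟩ | ⟨h, -⟩
  · -- cyclic Sylow 2-subgroup
    by_cases hodd : Odd (Nat.card G)
    · refine ⟨⊤, inferInstance, by rwa [Subgroup.card_top], ?_⟩
      rw [Subgroup.card_top, ← hx]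
      exact orderOf_dvd_natCard x
    · have hmin : (Nat.card G).minFac = 2 := by
        rw [Nat.minFac_eq_two_iff]
        exact (Nat.not_odd_iff_even.mp hodd).two_dvd
      have hcompl := IsCyclic.isComplement' hmin (P := T) hc
      set K := (MonoidHom.transferSylow T (hc.normalizer_le_centralizer hmin)).ker with hK
      have hcard : Nat.card K * Nat.card T = Nat.card G := hcompl.card_mul
      have hKodd : ¬ 2 ∣ Nat.card K := by
        have h3 := T.not_dvd_index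
        rw [hcompl.index_eq_card] at h3
        exact h3
      refine ⟨K, inferInstance, Nat.not_even_iff_odd.mp fun h => hKodd h.two_dvd, ?_⟩
      have h4 : p ∣ Nat.card K * Nat.card T := by
        rw [hcard, ← hx]; exact orderOf_dvd_natCard x
      rcases (Nat.Prime.dvd_mul hp.out).mp h4 with h5 | h5
      · exact h5
      · obtain ⟨k, hk⟩ := T.isPGroup'.exists_card_eq
        rw [hk] at h5
        exact absurd ((Nat.prime_dvd_prime_iff_eq hp.out Nat.prime_two).mp (hp.out.dvd_of_dvd_pow h5)) hp2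
  · -- elementary abelian
    exfalso
    have hsq : ∀ t ∈ (T : Subgroup G), t ^ 2 = 1 := he.2
    obtain ⟨t, ht4, ht2, -, g, hg⟩ := exists_involution T (fun t ht => by
      rw [show (4 : ℕ) = 2 * 2 from rfl, pow_mul, hsq t ht, one_pow]) hw hxx
    apply ht2
    have h3 := hsq _ hg
    rw [conj_pow] at h3
    have := congrArg (fun y => g⁻¹ * y * g) h3
    simpa [mul_assoc] using this
  · -- quaternion
    have h4 : ∀ t ∈ (T : Subgroup G), t ^ 4 = 1 := by
      intro t ht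
      have h5 := q8_pow (e ⟨t, ht⟩)
      rw [← map_pow] at h5
      have h6 := e.injective (h5.trans (map_one e).symm)
      exact congrArg Subtype.val h6
    obtain ⟨t, ht4, ht2, htx, g, hg⟩ := exists_involution T h4 hw hxx
    set u : G := g * t ^ 2 * g⁻¹ with hu
    have huT : u ∈ (T : Subgroup G) := by
      rw [hu, ← conj_pow]; exact pow_mem hg 2
    have hu1 : u ≠ 1 := by
      intro h
      apply ht2
      have := congrArg (fun y => g⁻¹ * y * g) h
      simpa [hu, mul_assoc] using this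
    have hu2 : u ^ 2 = 1 := by
      rw [hu, conj_pow, ← pow_mul, show 2 * 2 = 4 from rfl, ht4]; group
    have huo : orderOf u = 2 := orderOf_eq_prime hu2 hu1
    obtain ⟨N, hN, hNodd, hNu⟩ := H5.ZStar5.sylow_form H5.ZStar.zhyp T u huo huT (by
      intro k hk
      have h7 := q8_unique (e ⟨k * u * k⁻¹, hk⟩) (e ⟨u, huT⟩) (by
          rw [← map_pow]
          have : (⟨k * u * k⁻¹, hk⟩ : (T : Subgroup G)) ^ 2 = 1 := Subtype.ext (by
            show (k * u * k⁻¹) ^ 2 = 1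
            rw [conj_pow, hu2]; group)
          rw [this, map_one]) (by
          intro h8
          have h9 := e.injective (h8.trans (map_one e).symm)
          have h10 : k * u * k⁻¹ = 1 := congrArg Subtype.val h9
          apply hu1
          have := congrArg (fun y => k⁻¹ * y * k) h10
          simpa [mul_assoc] using this) (by
          rw [← map_pow]
          have : (⟨u, huT⟩ : (T : Subgroup G)) ^ 2 = 1 := Subtype.ext hu2
          rw [this, map_one]) (by
          intro h8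
          have h9 := e.injective (h8.trans (map_one e).symm)
          exact hu1 (congrArg Subtype.val h9))
      exact congrArg Subtype.val (e.injective h7))
    refine ⟨N, hN, hNodd, ?_⟩
    set x' : G := g * x * g⁻¹ with hx'
    have hx'o : orderOf x' = p := by
      rw [hx']
      have := MulEquiv.orderOf_eq (MulAut.conj g) x
      rw [MulAut.conj_apply] at this
      rw [this, hx]
    have h5 := hNu x'
    have h6 : u * x' * u⁻¹ = x'⁻¹ := by
      calc u * x' * u⁻¹ = g * (t ^ 2 * x * (t ^ 2)⁻¹) * g⁻¹ := by rw [hu, hx']; group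
        _ = g * x⁻¹ * g⁻¹ := by rw [htx]
        _ = x'⁻¹ := by rw [hx']; group
    rw [h6] at h5
    have h7 : x' ∈ N := by
      obtain ⟨m, hm⟩ := hpodd
      have h8 : (x'⁻¹ * x'⁻¹) ^ m ∈ N := pow_mem h5 m
      have h9 : (x'⁻¹ * x'⁻¹) ^ m = x' := by
        rw [← pow_two, ← pow_mul, inv_pow]
        have h10 : x' ^ (2 * m) * x' = 1 := by
          rw [← pow_succ, ← hm, ← hx'o, pow_orderOf_eq_one]
        exact inv_eq_of_mul_eq_one_right h10
      rwa [h9] at h8
    rw [← hx'o]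
    have := orderOf_dvd_natCard (⟨x', h7⟩ : N)
    rwa [Subgroup.orderOf_mk] at this
  · exact absurd rfl h

theorem main (h : ∀ p : ℕ, p.Prime → CP p G) {p : ℕ} [hp : Fact p.Prime] (P : Sylow p G) :
    IsCyclic P ∨ Cfsg.IsElementaryAbelian p (P : Subgroup G) ∨ Nonempty ((P : Subgroup G) ≃* QuaternionGroup 2) := by
  rcases CP.main4023 (h p hp.out) P with hc | he | ⟨-, he⟩ | ⟨hp2, hna, hcard, hexp⟩
  · exact Or.inl hc
  · exact Or.inr (Or.inl he)
  · exact Or.inr (Or.inr he)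
  · exfalso
    obtain ⟨x, w, hx, hw⟩ := exists_w (h p hp.out) P hna hcard (by
      intro y hy
      have h1 := Monoid.pow_exponent_eq_one (⟨y, hy⟩ : (P : Subgroup G))
      rw [hexp] at h1
      exact congrArg Subtype.val h1)
    obtain ⟨N, hN, hNodd, hpN⟩ := exists_odd_normal hp2 (h 2 Nat.prime_two) hx hw
    have hs : Group.IsSolvable N := H18.OddOrder.solvable hNodd
    exact hna (CP.main4024 hp2 (h p hp.out) P N (H37.QuadCore.isPSolvable_of_isSolvable p _ N hs rfl) hpN).1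

end H18.ConjPSyl
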