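import Cfsg.Agent.Lib.H31.Clifford
import Cfsg.Agent.Lib.H18.Primitive
import Cfsg.Agent.Lib.H31.FunBasic

/-!
Going down over an abelian chief factor (Isaacs 6.18).
-/

set_option autoImplicit false
set_option linter.unusedSectionVars false

namespace H18.GoDown

open Cfsg H18.CharBasic H18.CharOrtho H18.CharInd H18.CharQuot H31.Clifford
open scoped ComplexConjugate

universe u

section one

variable {K : Type u} [Group K] [Fintype K] (L : Subgroup K) [hL : L.Normal] [Fintype L]

/-- `(θ_L, θ_L)` counts the linear characters of `K/L` fixing `θ` when `K/L` is abelian. -/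
theorem norm_restrict [Fintype (IrrCharacter (K ⧸ L))] (hab : ∀ a b : K, a * b * a⁻¹ * b⁻¹ ∈ L)
    {θ : K → ℂ} (hθ : IsIrrCharacter K θ) [DecidableEq (K → ℂ)] :
    classInner (fun x : L => θ x) (fun x : L => θ x) =
      ∑ β : IrrCharacter (K ⧸ L),
        if (fun x : K => (β : K ⧸ L → ℂ) (x : K ⧸ L) * θ x) = θ then 1 else 0 := by
  classical
  have hcomm : ∀ a b : K ⧸ L, a * b = b * a := by
    intro a b
    obtain ⟨a, rfl⟩ := QuotientGroup.mk_surjective a
    obtain ⟨b, rfl⟩ := QuotientGroup.mk_surjective b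
    rw [← QuotientGroup.mk_mul, ← QuotientGroup.mk_mul]
    symm
    rw [QuotientGroup.eq]
    have := hab a⁻¹ b⁻¹
    -- (b a)⁻¹ (a b) = a⁻¹ b⁻¹ a b
    rw [inv_inv, inv_inv] at this
    have h2 : (b * a)⁻¹ * (a * b) = a⁻¹ * b⁻¹ * a * b := by group
    rw [h2]; exact this
  have hlin : ∀ β : IrrCharacter (K ⧸ L), (β : K ⧸ L → ℂ) 1 = 1 :=
    fun β => degree_one_of_comm hcomm β.2
  have : Fintype (K ⧸ L) := Fintype.ofFinite _
  have hsum : ∀ x : K, ∑ β : IrrCharacter (K ⧸ L), (β : K ⧸ L → ℂ) (x : K ⧸ L) =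
      if x ∈ L then (L.index : ℂ) else 0 := by
    intro x
    by_cases hx : x ∈ L
    · rw [if_pos hx]
      have h1 : (x : K ⧸ L) = 1 := (QuotientGroup.eq_one_iff x).2 hx
      have h2 := sum_degree_sq (G := K ⧸ L)
      rw [h1]
      have h3 : (L.index : ℂ) = (Nat.card (K ⧸ L) : ℂ) := rfl
      rw [h3, ← h2]
      refine Finset.sum_congr rfl fun β _ => ?_
      rw [hlin β]; ring
    · rw [if_neg hx]
      have h1 : (x : K ⧸ L) ≠ 1 := fun h => hx ((QuotientGroup.eq_one_iff x).1 h)
      have h2 := sum_degree_mul h1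
      rw [← h2]
      refine Finset.sum_congr rfl fun β _ => ?_
      rw [hlin β]; ring
  have hirr : ∀ β : IrrCharacter (K ⧸ L),
      IsIrrCharacter K (fun x : K => (β : K ⧸ L → ℂ) (x : K ⧸ L) * θ x) := by
    intro β
    have h1 := isIrrCharacter_inflate L β.2
    have h2 := isIrrCharacter_mul_linear (isCharacter_of_isIrr h1) (hlin β) hθ
    exact h2
  have hterm : ∀ β : IrrCharacter (K ⧸ L),
      (if (fun x : K => (β : K ⧸ L → ℂ) (x : K ⧸ L) * θ x) = θ then (1 : ℂ) else 0) =
        classInner (fun x : K => (β : K ⧸ L → ℂ) (x : K ⧸ L) * θ x) θ := by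
    intro β
    rw [inner_irr (hirr β) hθ]
    congr
  rw [Finset.sum_congr rfl (fun β _ => hterm β)]
  unfold classInner
  rw [← Finset.mul_sum, Finset.sum_comm]
  have h1 : ∀ x : K, ∑ β : IrrCharacter (K ⧸ L),
      (β : K ⧸ L → ℂ) (x : K ⧸ L) * θ x * conj (θ x) =
        (if x ∈ L then (L.index : ℂ) else 0) * (θ x * conj (θ x)) := by
    intro x
    rw [← hsum x, Finset.sum_mul]
    refine Finset.sum_congr rfl fun β _ => ?_
    ring
  rw [Finset.sum_congr rfl (fun x _ => h1 x)]
  rw [H31.FunBasic.sum_subgroup_eq L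
    (fun x => (if x ∈ L then (L.index : ℂ) else 0) * (θ x * conj (θ x))) (by
      intro g hg; simp [hg])]
  have h2 : ∀ x : L, (if (x : K) ∈ L then (L.index : ℂ) else 0) * (θ x * conj (θ x)) =
      (L.index : ℂ) * (θ x * conj (θ x)) := by
    intro x; rw [if_pos x.2]
  rw [Finset.sum_congr rfl (fun x _ => h2 x), ← Finset.mul_sum, ← mul_assoc]
  congr 1
  rw [← Subgroup.card_mul_index L]
  have h3 : (Nat.card L : ℂ) ≠ 0 := card_ne_zero'
  have h4 : (L.index : ℂ) ≠ 0 := by exact_mod_cast Subgroup.index_ne_zero_of_finite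
  push_cast
  field_simp

/-- Norm of a restriction vanishing off `L`. -/
theorem norm_restrict_of_vanish {θ : K → ℂ} (hθ : IsIrrCharacter K θ)
    (hv : ∀ x : K, x ∉ L → θ x = 0) :
    classInner (fun x : L => θ x) (fun x : L => θ x) = L.index := by
  have h1 := inner_irr_self hθ
  unfold classInner at h1 ⊢
  rw [H31.FunBasic.sum_subgroup_eq L (fun x => θ x * conj (θ x)) (by
    intro g hg; rw [hv g hg, zero_mul]), ← Subgroup.card_mul_index L] at h1
  have h3 : (Nat.card L : ℂ) ≠ 0 := card_ne_zero'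
  have h4 : (L.index : ℂ) ≠ 0 := by exact_mod_cast Subgroup.index_ne_zero_of_finite
  push_cast at h1
  field_simp at h1
  field_simp
  exact h1

/-- Norm formula from Clifford's theorem. -/
theorem norm_clifford {θ : K → ℂ} (hθ : IsIrrCharacter K θ) {φ : L → ℂ}
    (hφ : IsIrrCharacter L φ) (hne : classInner (fun x : L => θ x) φ ≠ 0) {e : ℕ}
    (he : classInner (fun x : L => θ x) φ = e) :
    classInner (fun x : L => θ x) (fun x : L => θ x) = (e ^ 2 * (inertia L φ).index : ℕ) := by
  classical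
  have h1 := restrict_eq L hθ hφ hne
  rw [he] at h1
  rw [h1, CharOrtho.inner_smul_left, H18.CharOrtho.inner_smul_right,
    CharOrtho.inner_sum_left]
  have h2 : ∀ φ' ∈ orb L φ, classInner φ' (∑ φ'' ∈ orb L φ, φ'') = 1 := by
    intro φ' h'
    rw [CharOrtho.inner_sum_right, Finset.sum_eq_single φ']
    · exact inner_irr_self (irr_of_mem_orb L hφ h')
    · intro φ'' h'' hne'
      exact inner_irr_ne (irr_of_mem_orb L hφ h') (irr_of_mem_orb L hφ h'') (Ne.symm hne')
    · intro h; exact absurd h' h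
  rw [Finset.sum_congr rfl h2, Finset.sum_const, card_orb]
  simp
  ring

end one

section two

variable {G : Type u} [Group G] [Fintype G] (K L : Subgroup G) [hK : K.Normal] [hL : L.Normal]

/-- The subgroup of `K` on which all linear characters of `K/L` stabilizing `θ` are trivial. -/
def fixKer (θ : K → ℂ) : Subgroup G :=
  (⨅ f : {f : K →* ℂˣ // (∀ x : K, (x : G) ∈ L → f x = 1) ∧ ∀ x, (f x : ℂ) * θ x = θ x},
    f.1.ker).map K.subtype

theorem mem_fixKer {θ : K → ℂ} {x : G} : x ∈ fixKer K L θ ↔ ∃ hx : x ∈ K,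
    ∀ f : K →* ℂˣ, (∀ y : K, (y : G) ∈ L → f y = 1) → (∀ y, (f y : ℂ) * θ y = θ y) →
      f ⟨x, hx⟩ = 1 := by
  unfold fixKer
  constructor
  · rintro ⟨y, hy, rfl⟩
    refine ⟨y.2, fun f h1 h2 => ?_⟩
    have := (Subgroup.mem_iInf.1 hy) ⟨f, h1, h2⟩
    exact this
  · rintro ⟨hx, h⟩
    refine ⟨⟨x, hx⟩, ?_, rfl⟩
    rw [SetLike.mem_coe, Subgroup.mem_iInf]
    rintro ⟨f, h1, h2⟩
    exact h f h1 h2

theorem fixKer_le (θ : K → ℂ) : fixKer K L θ ≤ K := by
  intro x hx
  obtain ⟨h, -⟩ := (mem_fixKer K L).1 hx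
  exact h

theorem le_fixKer (hLK : L ≤ K) (θ : K → ℂ) : L ≤ fixKer K L θ := by
  intro x hx
  exact (mem_fixKer K L).2 ⟨hLK hx, fun f h1 _ => h1 _ hx⟩

theorem fixKer_normal {θ : K → ℂ}
    (hinv : ∀ (g : G) (n : K), θ ⟨g * n * g⁻¹, hK.conj_mem (n : G) n.2 g⟩ = θ n) :
    (fixKer K L θ).Normal := by
  refine ⟨fun x hx g => ?_⟩
  obtain ⟨hxK, h⟩ := (mem_fixKer K L).1 hx
  refine (mem_fixKer K L).2 ⟨hK.conj_mem x hxK g, fun f h1 h2 => ?_⟩
  have h3 := h (f.comp (MulAut.conjNormal g).toMonoidHom) (by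
    intro y hy
    show f (MulAut.conjNormal g y) = 1
    apply h1
    rw [MulAut.conjNormal_apply]
    exact hL.conj_mem _ hy g) (by
    intro y
    show (f (MulAut.conjNormal g y) : ℂ) * θ y = θ y
    have h4 := h2 (MulAut.conjNormal g y)
    have h5 : θ (MulAut.conjNormal g y) = θ y := by
      rw [← hinv g y]
      congr 1
    rw [h5] at h4
    exact h4)
  rw [← h3]
  show f _ = f (MulAut.conjNormal g ⟨x, hxK⟩)
  congr 1

/-- `T ∩ K` is normal in `G`. -/
theorem inertia_inf_normal [Fintype K] [Fintype L] (hLK : L ≤ K) (hab : ⁅K, K⁆ ≤ L) {θ : K → ℂ}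
    (hθ : IsIrrCharacter K θ)
    (hinv : ∀ (g : G) (n : K), θ ⟨g * n * g⁻¹, hK.conj_mem (n : G) n.2 g⟩ = θ n)
    {φ : L → ℂ} (hφ : IsIrrCharacter L φ) (hne : classInner (resH hLK θ) φ ≠ 0) :
    (∀ g : G, ∃ k ∈ K, conjFunN L g φ = conjFunN L k φ) ∧ (inertia L φ ⊓ K).Normal := by
  classical
  have : Fintype (L.subgroupOf K) := Fintype.ofFinite _
  have hconj : ∀ g : G, ∃ k ∈ K, conjFunN L g φ = conjFunN L k φ := by
    intro g
    have h1 : classInner (resH hLK θ) (conjFunN L g φ) ≠ 0 := by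
      have h2 : conjFunN L g (resH hLK θ) = resH hLK θ := by
        funext x
        exact hinv g ⟨x, hLK x.2⟩
      rw [← h2, inner_cj]
      exact hne
    have h3 : classInner (fun x : L.subgroupOf K => θ x) (thT L K φ) ≠ 0 := by
      rw [inner_thT L K hLK]; exact hne
    have h4 : classInner (fun x : L.subgroupOf K => θ x) (thT L K (conjFunN L g φ)) ≠ 0 := by
      rw [inner_thT L K hLK]; exact h1
    obtain ⟨k, hk⟩ := constituents_conj (L.subgroupOf K) hθ (irr_thT L K hLK hφ)
      (irr_thT L K hLK (isIrrCharacter_conjN L g hφ)) h3 h4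
    rw [cj_thT] at hk
    exact ⟨k, k.2, thT_inj L K hLK hk⟩
  refine ⟨hconj, ⟨fun x hx g => ?_⟩⟩
  obtain ⟨hxT, hxK⟩ := hx
  refine ⟨?_, hK.conj_mem x hxK g⟩
  have hxT' : conjFunN L x φ = φ := (mem_inertia L).1 hxT
  show g * x * g⁻¹ ∈ inertia L φ
  rw [mem_inertia]
  obtain ⟨k, hk, hgk⟩ := hconj g
  have h5 : k * x = (k * x * k⁻¹ * x⁻¹) * (x * k) := by group
  have h6 : k * x * k⁻¹ * x⁻¹ ∈ L := hab (Subgroup.commutator_mem_commutator hk hxK)
  have e1 : conjFunN L (g * x * g⁻¹) φ = conjFunN L g⁻¹ (conjFunN L x (conjFunN L g φ)) := by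
    rw [cj_mul, cj_mul, mul_assoc]
  have e2 : conjFunN L x (conjFunN L k φ) = conjFunN L k φ := by
    rw [cj_mul, h5, cj_mul_mem L (isClassFunction_of_isIrr hφ) h6, ← cj_mul, hxT']
  rw [e1, hgk, e2, ← hgk, cj_mul, mul_inv_cancel, cj_one]

/-- Going down. -/
theorem going_down (hLK : L < K)
    (hchief : ∀ M : Subgroup G, M.Normal → L ≤ M → M ≤ K → M = L ∨ M = K)
    (hab : ⁅K, K⁆ ≤ L) (θ : K → ℂ) (hθ : IsIrrCharacter K θ)
    (hinv : ∀ (g : G) (n : K), θ ⟨g * n * g⁻¹, hK.conj_mem (n : G) n.2 g⟩ = θ n) :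
    IsIrrCharacter L (fun x : L => θ ⟨(x : G), hLK.le x.2⟩) ∨
    (∃ (φ : L → ℂ) (e : ℕ), IsIrrCharacter L φ ∧
      (fun x : L => θ ⟨(x : G), hLK.le x.2⟩) = (e : ℂ) • φ ∧ e ^ 2 = L.relIndex K) ∨
    (∃ F : Finset (L → ℂ), (∀ φ ∈ F, IsIrrCharacter L φ) ∧ F.card = L.relIndex K ∧
      (fun x : L => θ ⟨(x : G), hLK.le x.2⟩) = ∑ φ ∈ F, φ) := by
  classical
  have : Fintype K := Fintype.ofFinite _
  have : Fintype L := Fintype.ofFinite _
  have : Fintype (L.subgroupOf K) := Fintype.ofFinite _
  let L' := L.subgroupOf K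
  have hL'n : L'.Normal := hL.subgroupOf K
  let ι : L →* L' :=
    { toFun := fun x => ⟨⟨x, hLK.le x.2⟩, Subgroup.mem_subgroupOf.2 x.2⟩
      map_one' := rfl
      map_mul' := fun _ _ => rfl }
  have hι : Function.Surjective ι := fun y =>
    ⟨⟨((y : K) : G), Subgroup.mem_subgroupOf.1 y.2⟩, rfl⟩
  have hidx : L'.index = L.relIndex K := rfl
  have habK : ∀ a b : K, a * b * a⁻¹ * b⁻¹ ∈ L' := by
    intro a b
    exact Subgroup.mem_subgroupOf.2 (hab (Subgroup.commutator_mem_commutator a.2 b.2))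
  rcases hchief (fixKer K L θ) (fixKer_normal K L hinv) (le_fixKer K L hLK.le θ)
    (fixKer_le K L θ) with hV | hV
  · -- θ vanishes off L
    have hvan : ∀ x : K, x ∉ L' → θ x = 0 := by
      intro x hx
      by_contra hne
      apply hx
      rw [Subgroup.mem_subgroupOf, ← hV]
      refine (mem_fixKer K L).2 ⟨x.2, fun f _ h2 => ?_⟩
      have h3 := h2 x
      apply Units.ext
      exact mul_right_cancel₀ hne (by rw [Units.val_one, one_mul]; exact h3)
    have hnorm := norm_restrict_of_vanish L' hθ hvan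
    -- a constituent on L
    obtain ⟨φ, hφ, hne⟩ := exists_constituent (G := L) (χ := resH hLK.le θ)
      (isCharacter_resH L K hLK.le (isCharacter_of_isIrr hθ)) (by
        intro h
        have := congrFun h 1
        exact irr_one_ne_zero hθ this)
    have hne' : classInner (fun x : L' => θ x) (thT L K φ) ≠ 0 := by
      rw [inner_thT L K hLK.le]; exact hne
    have hφ' := irr_thT L K hLK.le hφ
    obtain ⟨e, he⟩ := inner_char_natCast (isCharacter_restrict L' (isCharacter_of_isIrr hθ))
      (isCharacter_of_isIrr hφ')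
    have hcl := norm_clifford L' hθ hφ' hne' he
    rw [hnorm] at hcl
    have hcl' : e ^ 2 * (inertia L' (thT L K φ)).index = L'.index := by exact_mod_cast hcl.symm
    have hine : inertia L' (thT L K φ) = (inertia L φ).subgroupOf K := by
      ext k
      rw [mem_inertia, Subgroup.mem_subgroupOf, mem_inertia, cj_thT]
      constructor
      · intro h; exact thT_inj L K hLK.le h
      · intro h; rw [h]
    have hres := restrict_eq L' hθ hφ' hne'
    rw [he] at hres
    obtain ⟨-, hTn⟩ := inertia_inf_normal K L hLK.le hab hθ hinv hφ hne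
    have hLT : L ≤ inertia L φ := le_inertia L (isClassFunction_of_isIrr hφ)
    rcases hchief _ hTn (le_inf hLT hLK.le) inf_le_right with hT | hT
    · -- inertia is L
      right; right
      have h1 : (inertia L' (thT L K φ)).index = L'.index := by
        rw [hine]
        show (inertia L φ).relIndex K = _
        rw [← Subgroup.inf_relIndex_right, hT]
        rfl
      have hLpos : 0 < L'.index := Nat.pos_of_ne_zero Subgroup.index_ne_zero_of_finite
      have he1 : e ^ 2 = 1 := by
        rw [h1] at hcl'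
        exact Nat.eq_of_mul_eq_mul_right hLpos (by rw [hcl', one_mul])
      have he1' : e = 1 := by
        rcases Nat.pow_eq_one.1 he1 with h | h
        · exact h
        · omega
      rw [he1', Nat.cast_one, one_smul] at hres
      have hinj : Function.Injective (fun (ψ : L' → ℂ) (x : L) => ψ (ι x)) := by
        intro a b h
        funext y
        obtain ⟨x, rfl⟩ := hι y
        exact congrFun h x
      refine ⟨(orb L' (thT L K φ)).image (fun ψ x => ψ (ι x)), ?_, ?_, ?_⟩
      · intro ψ hψ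
        obtain ⟨ψ', hψ', rfl⟩ := Finset.mem_image.1 hψ
        exact isIrrCharacter_comp ι hι (irr_of_mem_orb L' hφ' hψ')
      · rw [Finset.card_image_of_injective _ hinj, card_orb, h1, hidx]
      · rw [Finset.sum_image (fun a _ b _ h => hinj h)]
        funext x
        have h2 := congrFun hres (ι x)
        rw [Finset.sum_apply] at h2 ⊢
        exact h2
    · -- inertia contains K
      right; left
      have h1 : inertia L' (thT L K φ) = ⊤ := by
        rw [hine, Subgroup.subgroupOf_eq_top]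
        rw [← hT]; exact inf_le_left
      rw [h1, Subgroup.index_top, mul_one] at hcl'
      refine ⟨φ, e, hφ, ?_, hcl'⟩
      have horb : orb L' (thT L K φ) = {thT L K φ} := by
        ext ψ
        rw [mem_orb, Finset.mem_singleton]
        constructor
        · rintro ⟨g, rfl⟩
          have : g ∈ inertia L' (thT L K φ) := by rw [h1]; trivial
          exact (mem_inertia L').1 this
        · rintro rfl
          exact ⟨1, (cj_one L' _).symm⟩
      rw [horb, Finset.sum_singleton] at hres
      funext x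
      have h2 := congrFun hres (ι x)
      exact h2
  · -- all fixing characters trivial
    left
    have hfin : Finite (IrrCharacter (K ⧸ L')) := (finite_irr_set (G := K ⧸ L')).to_subtype
    have : Fintype (IrrCharacter (K ⧸ L')) := Fintype.ofFinite _
    have hnorm := norm_restrict L' habK hθ
    let one : IrrCharacter (K ⧸ L') := ⟨fun _ => 1, isIrrCharacter_one⟩
    rw [Finset.sum_eq_single one] at hnorm
    · rw [if_pos (by funext x; simp [one])] at hnorm
      have h1 : IsIrrCharacter L' (fun x : L' => θ x) :=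
        isIrr_of_norm_one (isCharacter_restrict L' (isCharacter_of_isIrr hθ)) hnorm
      exact isIrrCharacter_comp ι hι h1
    · intro β _ hβ
      rw [if_neg]
      intro hcon
      apply hβ
      -- β as a homomorphism on K
      have hβK := isIrrCharacter_inflate L' β.2
      have hcommQ : ∀ a b : K ⧸ L', a * b = b * a := by
        intro a b
        obtain ⟨a, rfl⟩ := QuotientGroup.mk_surjective a
        obtain ⟨b, rfl⟩ := QuotientGroup.mk_surjective b
        rw [← QuotientGroup.mk_mul, ← QuotientGroup.mk_mul]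
        symm
        rw [QuotientGroup.eq]
        have := habK a⁻¹ b⁻¹
        rw [inv_inv, inv_inv] at this
        have h2 : (b * a)⁻¹ * (a * b) = a⁻¹ * b⁻¹ * a * b := by group
        rw [h2]; exact this
      have hβ1 : (β : K ⧸ L' → ℂ) 1 = 1 := degree_one_of_comm hcommQ β.2
      obtain ⟨f, hf⟩ := exists_hom_of_degree_one (isCharacter_of_isIrr hβK) hβ1
      have hf' : ∀ x : K, (β : K ⧸ L' → ℂ) (x : K ⧸ L') = f x := fun x => congrFun hf x
      have h2 : ∀ x : K, f x = 1 := by
        intro x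
        have hx : (x : G) ∈ fixKer K L θ := by rw [hV]; exact x.2
        obtain ⟨_, h3⟩ := (mem_fixKer K L).1 hx
        refine h3 f ?_ ?_
        · intro y hy
          apply Units.ext
          rw [← hf' y]
          have : ((y : K) : K ⧸ L') = 1 := (QuotientGroup.eq_one_iff y).2 (Subgroup.mem_subgroupOf.2 hy)
          rw [this, hβ1]; rfl
        · intro y
          rw [← hf' y]
          exact congrFun hcon y
      apply Subtype.ext
      funext q
      obtain ⟨x, rfl⟩ := QuotientGroup.mk_surjective q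
      rw [hf', h2]
      rfl
    · intro h; exact absurd (Finset.mem_univ _) h

end two

end H18.GoDown
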