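import Cfsg.Agent.Lib.H48.QuadSplit
import Cfsg.Agent.Lib.H48.QuadStd

/-!
Maximal totally singular subspaces of a non-degenerate quadratic form of plus type (any field).
-/

set_option autoImplicit false

namespace H18.MaxSing

open QuadraticMap H48.QuadSplit

variable {F : Type*} [Field F] {V : Type*} [AddCommGroup V] [Module F V] [FiniteDimensional F V]

/-- Totally singular subspaces. -/
def TS (Q : QuadraticForm F V) (U : Submodule F V) : Prop := ∀ u ∈ U, Q u = 0

omit [FiniteDimensional F V] in
theorem polar_eq_zero {Q : QuadraticForm F V} {U : Submodule F V} (h : TS Q U) {u v : V}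
    (hu : u ∈ U) (hv : v ∈ U) : polar Q u v = 0 := by
  rw [polar, h _ (U.add_mem hu hv), h u hu, h v hv]; ring

omit [FiniteDimensional F V] in
theorem le_orth {Q : QuadraticForm F V} {U : Submodule F V} (h : TS Q U) : U ≤ orth Q U :=
  fun _ hx _ hu => polar_eq_zero h hu hx

omit [FiniteDimensional F V] in
theorem orth_anti {Q : QuadraticForm F V} {U W : Submodule F V} (h : U ≤ W) :
    orth Q W ≤ orth Q U := fun _ hx u hu => hx u (h hu)

omit [FiniteDimensional F V] in
theorem orth_sup (Q : QuadraticForm F V) (U W : Submodule F V) :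
    orth Q (U ⊔ W) = orth Q U ⊓ orth Q W := by
  apply le_antisymm
  · exact le_inf (orth_anti le_sup_left) (orth_anti le_sup_right)
  · rintro x ⟨h1, h2⟩ y hy
    obtain ⟨u, hu, w, hw, rfl⟩ := Submodule.mem_sup.1 hy
    rw [polar_add_left, h1 u hu, h2 w hw, add_zero]

variable {Q : QuadraticForm F V} {m : ℕ}

theorem finrank_le (hQ : ND Q) (hm : Module.finrank F V = 2 * m) {U : Submodule F V}
    (h : TS Q U) : Module.finrank F U ≤ m := by
  have h1 := finrank_orth hQ U
  have h2 := Submodule.finrank_mono (le_orth h)
  omega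

theorem orth_eq_self (hQ : ND Q) (hm : Module.finrank F V = 2 * m) {U : Submodule F V}
    (h : TS Q U) (hU : Module.finrank F U = m) : orth Q U = U := by
  have h1 := finrank_orth hQ U
  symm
  apply Submodule.eq_of_le_of_finrank_eq (le_orth h)
  omega

theorem finrank_inf_orth (hQ : ND Q) (hm : Module.finrank F V = 2 * m) {E H : Submodule F V}
    (hE : TS Q E) (hEm : Module.finrank F E = m) :
    Module.finrank F ↥(E ⊓ orth Q H) + Module.finrank F H =
      m + Module.finrank F ↥(E ⊓ H) := by
  have h1 : E ⊓ orth Q H = orth Q (E ⊔ H) := by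
    rw [orth_sup, orth_eq_self hQ hm hE hEm]
  have h2 := finrank_orth hQ (E ⊔ H)
  have h3 := Submodule.finrank_sup_add_finrank_inf_eq E H
  rw [h1]
  omega

omit [FiniteDimensional F V] in
theorem ts_replace {E H : Submodule F V} (hE : TS Q E) (hH : TS Q H) :
    TS Q ((E ⊓ orth Q H) ⊔ H) := by
  intro x hx
  obtain ⟨u, hu, w, hw, rfl⟩ := Submodule.mem_sup.1 hx
  have h1 : polar Q u w = 0 := by rw [polar_comm]; exact hu.2 w hw
  rw [map_add_of_orth h1, hE u hu.1, hH w hw, add_zero]

theorem finrank_replace (hQ : ND Q) (hm : Module.finrank F V = 2 * m) {E H : Submodule F V}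
    (hE : TS Q E) (hEm : Module.finrank F E = m) (hH : TS Q H) :
    Module.finrank F ↥((E ⊓ orth Q H) ⊔ H) = m := by
  have h1 := finrank_inf_orth hQ hm hE hEm (H := H)
  have h3 := Submodule.finrank_sup_add_finrank_inf_eq (E ⊓ orth Q H) H
  have h4 : (E ⊓ orth Q H) ⊓ H = E ⊓ H := by
    apply le_antisymm
    · exact le_inf (inf_le_left.trans inf_le_left) inf_le_right
    · exact le_inf (le_inf inf_le_left (inf_le_right.trans (le_orth hH))) inf_le_right
  rw [h4] at h3
  omega

/-- The two maximal totally singular subspaces over a submaximal one. -/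
theorem exists_two (hQ : ND Q) (hm : Module.finrank F V = 2 * m) {H W : Submodule F V}
    (hW : TS Q W) (hWm : Module.finrank F W = m) (hHW : H ≤ W)
    (hHm : Module.finrank F H + 1 = m) :
    ∃ X : Submodule F V, TS Q X ∧ Module.finrank F X = m ∧ H ≤ X ∧ X ≠ W ∧
      ∀ Y : Submodule F V, TS Q Y → Module.finrank F Y = m → H ≤ Y → Y = W ∨ Y = X := by
  have hH : TS Q H := fun u hu => hW u (hHW hu)
  have hlt : H < W := by
    refine lt_of_le_of_ne hHW ?_
    rintro rfl; omega
  obtain ⟨w, hwW, hwH⟩ := SetLike.exists_of_lt hlt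
  have hWH : H ⊔ Submodule.span F {w} = W := by
    apply Submodule.eq_of_le_of_finrank_le
    · exact sup_le hHW (by rw [Submodule.span_singleton_le_iff_mem]; exact hwW)
    · have : H < H ⊔ Submodule.span F {w} := by
        refine lt_of_le_of_ne le_sup_left ?_
        intro h
        apply hwH
        rw [h]
        exact Submodule.mem_sup_right (Submodule.mem_span_singleton_self w)
      have := Submodule.finrank_lt_finrank_of_lt this
      omega
  have horth := finrank_orth hQ H
  have hWO : W ≤ orth Q H := (le_orth hW).trans (orth_anti hHW)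
  have hltO : W < orth Q H := by
    refine lt_of_le_of_ne hWO ?_
    intro h; rw [← h] at horth; omega
  obtain ⟨v, hvO, hvW⟩ := SetLike.exists_of_lt hltO
  have hwv : polar Q w v ≠ 0 := by
    intro h0
    apply hvW
    rw [← orth_eq_self hQ hm hW hWm]
    intro y hy
    rw [← hWH] at hy
    obtain ⟨a, ha, b, hb, rfl⟩ := Submodule.mem_sup.1 hy
    obtain ⟨c, rfl⟩ := Submodule.mem_span_singleton.1 hb
    rw [polar_add_left, polar_smul_left, hvO a ha, h0, smul_zero, add_zero]
  -- adjust v to be singular
  set z : V := v - (Q v / polar Q w v) • w with hz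
  have hQw : Q w = 0 := hW w hwW
  have hzO : z ∈ orth Q H := (orth Q H).sub_mem hvO ((orth Q H).smul_mem _ (hWO hwW))
  have hQz : Q z = 0 := by
    have h1 : Q z = Q v + Q (-(Q v / polar Q w v) • w) + polar Q v (-(Q v / polar Q w v) • w) := by
      rw [← QuadraticMap.map_add Q, hz]; congr 1; rw [neg_smul, sub_eq_add_neg]
    rw [h1, QuadraticMap.map_smul, hQw, smul_zero, add_zero, polar_smul_right, polar_comm Q v w,
      smul_eq_mul]
    field_simp
    ring
  have hwz : polar Q w z = polar Q w v := by
    rw [hz, sub_eq_add_neg, ← neg_smul, polar_add_right, polar_smul_right, polar_self, hQw]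
    simp
  have hzW : z ∉ W := by
    intro h
    apply hvW
    have : v = z + (Q v / polar Q w v) • w := by rw [hz]; abel
    rw [this]
    exact W.add_mem h (W.smul_mem _ hwW)
  have hzH : z ∉ H := fun h => hzW (hHW h)
  have hX : TS Q (H ⊔ Submodule.span F {z}) := by
    intro x hx
    obtain ⟨a, ha, b, hb, rfl⟩ := Submodule.mem_sup.1 hx
    obtain ⟨c, rfl⟩ := Submodule.mem_span_singleton.1 hb
    have h1 : polar Q a (c • z) = 0 := by rw [polar_smul_right, hzO a ha, smul_zero]
    rw [map_add_of_orth h1, hH a ha, QuadraticMap.map_smul, hQz, smul_zero, add_zero]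
  have hXm : Module.finrank F ↥(H ⊔ Submodule.span F {z}) = m := by
    have h1 := finrank_le hQ hm hX
    have : H < H ⊔ Submodule.span F {z} := by
      refine lt_of_le_of_ne le_sup_left ?_
      intro h
      apply hzH
      rw [h]
      exact Submodule.mem_sup_right (Submodule.mem_span_singleton_self z)
    have := Submodule.finrank_lt_finrank_of_lt this
    omega
  refine ⟨H ⊔ Submodule.span F {z}, hX, hXm, le_sup_left, ?_, ?_⟩
  · intro h
    apply hzW
    rw [← h]
    exact Submodule.mem_sup_right (Submodule.mem_span_singleton_self z)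
  · intro Y hY hYm hHY
    -- the whole orthogonal space
    have hspan : orth Q H ≤ (H ⊔ Submodule.span F {w}) ⊔ Submodule.span F {z} := by
      have h1 : (H ⊔ Submodule.span F {w}) ⊔ Submodule.span F {z} = orth Q H := by
        apply Submodule.eq_of_le_of_finrank_le
        · rw [hWH]
          exact sup_le hWO (by rw [Submodule.span_singleton_le_iff_mem]; exact hzO)
        · have : W < W ⊔ Submodule.span F {z} := by
            refine lt_of_le_of_ne le_sup_left ?_
            intro h
            apply hzW
            rw [h]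
            exact Submodule.mem_sup_right (Submodule.mem_span_singleton_self z)
          have := Submodule.finrank_lt_finrank_of_lt this
          rw [hWH]
          omega
      exact h1.ge
    have hYO : Y ≤ orth Q H := (le_orth hY).trans (orth_anti hHY)
    have key : ∀ y ∈ Y, y ∈ W ∨ y ∈ H ⊔ Submodule.span F {z} := by
      intro y hy
      obtain ⟨a, ha, b, hb, rfl⟩ := Submodule.mem_sup.1 (hspan (hYO hy))
      obtain ⟨h, hh, c, hc, rfl⟩ := Submodule.mem_sup.1 ha
      obtain ⟨α, rfl⟩ := Submodule.mem_span_singleton.1 hc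
      obtain ⟨β, rfl⟩ := Submodule.mem_span_singleton.1 hb
      have h1 : Q (α • w + β • z) = 0 := by
        have h2 : Q (h + (α • w + β • z)) = 0 := by rw [← add_assoc]; exact hY _ hy
        have h3 : polar Q h (α • w + β • z) = 0 := by
          rw [polar_add_right, polar_smul_right, polar_smul_right, hzO h hh,
            polar_eq_zero hW (hHW hh) hwW, smul_zero, smul_zero, add_zero]
        rwa [map_add_of_orth h3, hH h hh, zero_add] at h2
      rw [QuadraticMap.map_add Q, QuadraticMap.map_smul, QuadraticMap.map_smul, hQw, hQz, smul_zero,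
        smul_zero, add_zero, zero_add, polar_smul_left, polar_smul_right, hwz, smul_eq_mul,
        smul_eq_mul] at h1
      rcases mul_eq_zero.1 h1 with h2 | h2
      · right
        rw [h2, zero_smul, add_zero]
        exact Submodule.add_mem_sup hh (Submodule.smul_mem _ _ (Submodule.mem_span_singleton_self z))
      · rcases mul_eq_zero.1 h2 with h3 | h3
        · left
          rw [h3, zero_smul, add_zero]
          exact W.add_mem (hHW hh) (W.smul_mem _ hwW)
        · exact absurd h3 hwv
    by_cases hc : Y ≤ W
    · left; exact Submodule.eq_of_le_of_finrank_eq hc (hYm.trans hWm.symm)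
    · right
      apply Submodule.eq_of_le_of_finrank_eq _ (hYm.trans hXm.symm)
      obtain ⟨y, hyY, hyW⟩ := SetLike.not_le_iff_exists.1 hc
      intro x hx
      have hy' := (key y hyY).resolve_left hyW
      rcases key x hx with h1 | h1
      · rcases key (x + y) (Y.add_mem hx hyY) with h2 | h2
        · exfalso
          apply hyW
          have : y = (x + y) - x := by abel
          rw [this]; exact W.sub_mem h2 h1
        · have : x = (x + y) - y := by abel
          rw [this]; exact Submodule.sub_mem _ h2 hy'
      · exact h1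

/-- Parity key: adjacent maximal subspaces meet any maximal one in dimensions differing by one. -/
theorem adjacent (hQ : ND Q) (hm : Module.finrank F V = 2 * m) {U W X : Submodule F V}
    (hU : TS Q U) (hUm : Module.finrank F U = m)
    (hW : TS Q W) (hWm : Module.finrank F W = m)
    (hX : TS Q X) (hXm : Module.finrank F X = m)
    (hWX : Module.finrank F ↥(W ⊓ X) + 1 = m) :
    Module.finrank F ↥(U ⊓ W) = Module.finrank F ↥(U ⊓ X) + 1 ∨
      Module.finrank F ↥(U ⊓ X) = Module.finrank F ↥(U ⊓ W) + 1 := by
  set H := W ⊓ X with hHdef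
  have hH : TS Q H := fun u hu => hW u hu.1
  have hne : X ≠ W := by
    rintro rfl
    rw [hHdef, inf_idem] at hWX; omega
  obtain ⟨X', hX', hX'm, hHX', hne', hall⟩ := exists_two hQ hm hW hWm inf_le_left hWX
  have hXX' : X = X' := (hall X hX hXm inf_le_right).resolve_left hne
  subst hXX'
  have hT := ts_replace hU hH
  have hTm := finrank_replace hQ hm hU hUm hH
  have hdim := finrank_inf_orth hQ hm hU hUm (H := H)
  have main : ∀ A B : Submodule F V, TS Q A → TS Q B → A ⊓ B = H → H ≤ A → H ≤ B →
      (U ⊓ orth Q H) ⊔ H = A → Module.finrank F ↥(U ⊓ A) = Module.finrank F ↥(U ⊓ B) + 1 := by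
    intro A B hA hB hAB hHA hHB hE
    have h1 : U ⊓ orth Q H ≤ A := le_sup_left.trans hE.le
    have h2 : U ⊓ A = U ⊓ orth Q H := by
      apply le_antisymm
      · exact le_inf inf_le_left (inf_le_right.trans ((le_orth hA).trans (orth_anti hHA)))
      · exact le_inf inf_le_left h1
    have h3 : U ⊓ B = U ⊓ H := by
      apply le_antisymm
      · refine le_inf inf_le_left ?_
        rw [← hAB]
        refine le_inf ?_ inf_le_right
        refine le_trans (le_inf inf_le_left ?_) h1
        exact inf_le_right.trans ((le_orth hB).trans (orth_anti hHB))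
      · exact le_inf inf_le_left (inf_le_right.trans hHB)
    rw [h2, h3]
    omega
  rcases hall _ hT hTm le_sup_right with h | h
  · left
    exact main W X hW hX hHdef.symm inf_le_left inf_le_right h
  · right
    exact main X W hX hW (by rw [inf_comm]) inf_le_right inf_le_left h

/-- The parity theorem. -/
theorem parity (hQ : ND Q) (hm : Module.finrank F V = 2 * m) (k : ℕ) : ∀ {U W X : Submodule F V},
    TS Q U → Module.finrank F U = m → TS Q W → Module.finrank F W = m →
    TS Q X → Module.finrank F X = m → m - Module.finrank F ↥(W ⊓ X) = k →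
    Even ((m - Module.finrank F ↥(U ⊓ W)) + (m - Module.finrank F ↥(W ⊓ X)) +
      (m - Module.finrank F ↥(U ⊓ X))) := by
  induction k with
  | zero =>
    intro U W X hU hUm hW hWm hX hXm hk
    have h1 : Module.finrank F ↥(W ⊓ X) = m := by
      have := finrank_le hQ hm (U := W ⊓ X) (fun u hu => hW u hu.1)
      omega
    have h2 : W ⊓ X = W := Submodule.eq_of_le_of_finrank_eq inf_le_left (by omega)
    have h3 : W ⊓ X = X := Submodule.eq_of_le_of_finrank_eq inf_le_right (by omega)
    have h4 : W = X := h2.symm.trans h3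
    subst h4
    rw [inf_idem, hWm, Nat.sub_self, add_zero]
    exact ⟨_, rfl⟩
  | succ k ih =>
    intro U W X hU hUm hW hWm hX hXm hk
    have hnle : ¬ W ≤ X := by
      intro h
      rw [inf_eq_left.2 h, hWm, Nat.sub_self] at hk
      omega
    obtain ⟨w, hwW, hwX⟩ := SetLike.not_le_iff_exists.1 hnle
    have hw0 : w ≠ 0 := by rintro rfl; exact hwX X.zero_mem
    set H := Submodule.span F {w} with hHdef
    have hHW : H ≤ W := by rw [hHdef, Submodule.span_singleton_le_iff_mem]; exact hwW
    have hH : TS Q H := fun u hu => hW u (hHW hu)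
    have hH1 : Module.finrank F H = 1 := finrank_span_singleton hw0
    have hXH : X ⊓ H = ⊥ := by
      rw [← disjoint_iff, Submodule.disjoint_def]
      intro x hx hxH
      obtain ⟨c, rfl⟩ := Submodule.mem_span_singleton.1 hxH
      by_cases hc : c = 0
      · rw [hc, zero_smul]
      · exfalso
        apply hwX
        have := X.smul_mem c⁻¹ hx
        rwa [smul_smul, inv_mul_cancel₀ hc, one_smul] at this
    have hdim := finrank_inf_orth hQ hm hX hXm (H := H)
    rw [hXH, finrank_bot, hH1] at hdim
    set X' := (X ⊓ orth Q H) ⊔ H with hX'def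
    have hX' : TS Q X' := ts_replace hX hH
    have hX'm : Module.finrank F X' = m := finrank_replace hQ hm hX hXm hH
    have hwX' : w ∈ X' := Submodule.mem_sup_right (Submodule.mem_span_singleton_self w)
    have hXX' : Module.finrank F ↥(X ⊓ X') + 1 = m := by
      have h1 : X ⊓ orth Q H ≤ X ⊓ X' := le_inf inf_le_left le_sup_left
      have h2 := Submodule.finrank_mono h1
      have h3 : X ⊓ X' < X' := by
        refine lt_of_le_of_ne inf_le_right ?_
        intro h
        apply hwX
        rw [← h] at hwX'
        exact hwX'.1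
      have h4 := Submodule.finrank_lt_finrank_of_lt h3
      omega
    have hWX' : Module.finrank F ↥(W ⊓ X) + 1 ≤ Module.finrank F ↥(W ⊓ X') := by
      have h1 : W ⊓ X < W ⊓ X' := by
        refine lt_of_le_of_ne ?_ ?_
        · refine le_inf inf_le_left ?_
          refine le_trans (le_inf inf_le_right ?_) le_sup_left
          exact inf_le_left.trans ((le_orth hW).trans (orth_anti hHW))
        · intro h
          apply hwX
          have : w ∈ W ⊓ X := by rw [h]; exact ⟨hwW, hwX'⟩
          exact this.2
      exact Submodule.finrank_lt_finrank_of_lt h1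
    have hadj := adjacent hQ hm hW hWm hX hXm hX' hX'm hXX'
    have hadjU := adjacent hQ hm hU hUm hX hXm hX' hX'm hXX'
    have b1 := finrank_le hQ hm (U := W ⊓ X') (fun u hu => hW u hu.1)
    have b2 := finrank_le hQ hm (U := U ⊓ X') (fun u hu => hU u hu.1)
    have b3 := finrank_le hQ hm (U := U ⊓ X) (fun u hu => hU u hu.1)
    have b4 := finrank_le hQ hm (U := U ⊓ W) (fun u hu => hU u hu.1)
    have b5 := finrank_le hQ hm (U := W ⊓ X) (fun u hu => hW u hu.1)
    have hrec := ih hU hUm hW hWm hX' hX'm (by omega)
    rw [Nat.even_iff] at hrec ⊢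
    omega

section std

open H48.QuadStd

/-- The standard maximal totally singular subspace. -/
def stdE (m : ℕ) (F : Type*) [Field F] : Submodule F (Fin m ⊕ Fin m → F) :=
  LinearMap.range (LinearMap.pi (fun i : Fin m ⊕ Fin m =>
    Sum.elim (fun j => LinearMap.proj (R := F) (φ := fun _ : Fin m => F) j) (fun _ => 0) i))

theorem mem_stdE (m : ℕ) {v : Fin m ⊕ Fin m → F} : v ∈ stdE m F ↔ ∀ i, v (Sum.inr i) = 0 := by
  constructor
  · rintro ⟨w, rfl⟩ i
    simp
  · intro h
    refine ⟨fun i => v (Sum.inl i), ?_⟩
    ext i
    rcases i with i | i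
    · simp
    · simp [h i]

theorem ts_stdE (m : ℕ) : TS (qPlus m F) (stdE m F) := by
  intro v hv
  rw [mem_stdE] at hv
  rw [qPlus_apply]
  simp [hv]

theorem finrank_stdE (m : ℕ) : Module.finrank F (stdE m F) = m := by
  unfold stdE
  rw [LinearMap.finrank_range_of_inj]
  · simp
  · intro v w h
    ext i
    have := congrFun h (Sum.inl i)
    simpa using this

theorem finrank_space (m : ℕ) : Module.finrank F (Fin m ⊕ Fin m → F) = 2 * m := by
  rw [Module.finrank_fintype_fun_eq_card, Fintype.card_sum, Fintype.card_fin]; ring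

end std

end H18.MaxSing
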