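import Mathlib
import Cfsg.Agent.Lib.H53.Zsig

/-!
Arithmetic for prime graph recognition.
-/
set_option autoImplicit false

namespace H18.PGNum

open H53.Zsig

/-- a prime `r` with `ord_r(2) = n` -/
theorem exists_z {n : ℕ} (hn : 1 < n) (h6 : n ≠ 6) : ∃ r : ℕ, r.Prime ∧ orderOf (2 : ZMod r) = n := by
  obtain ⟨r, hr⟩ := zsigmondy (a := 2) (n := n) (by norm_num) hn (by rintro ⟨-, h⟩; exact h6 h)
    (by
      rintro ⟨-, m, hm⟩
      rcases m with _ | m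
      · norm_num at hm
      · rw [pow_succ] at hm; omega)
  have hp : r.Prime := hr.1
  refine ⟨r, hp, ?_⟩
  have := (isZsig_iff (a := 2) (by norm_num) (by omega) hp).1 hr
  exact_mod_cast this

theorem dvd_iff {r n k : ℕ} (h : orderOf (2 : ZMod r) = n) : r ∣ 2 ^ k - 1 ↔ n ∣ k := by
  rw [dvd_pow_sub_one_iff (a := 2) (by norm_num), ← h, orderOf_dvd_iff_pow_eq_one]
  norm_num

theorem ne_two {r n : ℕ} (h : orderOf (2 : ZMod r) = n) (hn : 1 < n) : r ≠ 2 := by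
  rintro rfl
  have h1 : (2 : ZMod 2) = 0 := two_eq_zero_zmod
  have h2 : orderOf (2 : ZMod 2) = 0 := by
    rw [h1]
    rw [orderOf_eq_zero_iff']
    intro k hk
    rw [zero_pow hk.ne']
    decide
  omega

/-- `r ≥ n + 1` -/
theorem lt_of_ord {r n : ℕ} (hr : r.Prime) (h : orderOf (2 : ZMod r) = n) (hn : 1 < n) : n < r := by
  haveI : Fact r.Prime := ⟨hr⟩
  have h2 : (2 : ZMod r) ≠ 0 := by
    intro h0
    have h1 : r ∣ 2 := (ZMod.natCast_eq_zero_iff 2 r).1 (by exact_mod_cast h0)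
    exact ne_two h hn ((Nat.prime_dvd_prime_iff_eq hr Nat.prime_two).1 h1)
  have h3 : (2 : ZMod r) ^ (r - 1) = 1 := ZMod.pow_card_sub_one_eq_one h2
  have h4 : n ∣ r - 1 := by rw [← h]; exact orderOf_dvd_of_pow_eq_one h3
  have h5 : 0 < r - 1 := by have := hr.two_le; omega
  have := Nat.le_of_dvd h5 h4
  omega

/-- for `q` even the numbers `q - 1`, `q ^ 2 + 1` are coprime -/
theorem coprime_sz {q : ℕ} (hq : Even q) (h1 : 1 ≤ q) {r : ℕ} (hr : r.Prime) (h : r ∣ q - 1)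
    (h' : r ∣ q ^ 2 + 1) : False := by
  have h2 : r ∣ q ^ 2 - 1 := by
    have : q ^ 2 - 1 = (q - 1) * (q + 1) := by
      obtain ⟨k, rfl⟩ := Nat.exists_eq_add_of_le h1
      rw [Nat.add_sub_cancel_left]
      have : (1 + k) ^ 2 = k * (1 + k + 1) + 1 := by ring
      omega
    rw [this]; exact h.mul_right _
  have h3 : 1 ≤ q ^ 2 := Nat.one_le_pow _ _ h1
  have h4 : r ∣ 2 := by
    have := Nat.dvd_sub h' h2
    have e : q ^ 2 + 1 - (q ^ 2 - 1) = 2 := by omega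
    rwa [e] at this
  have h5 : r = 2 := (Nat.prime_dvd_prime_iff_eq hr Nat.prime_two).1 h4
  subst h5
  obtain ⟨k, rfl⟩ := hq
  omega

theorem coprime_psl {q : ℕ} (hq : Even q) (h1 : 1 ≤ q) {r : ℕ} (hr : r.Prime) (h : r ∣ q - 1)
    (h' : r ∣ q + 1) : False := by
  have h4 : r ∣ 2 := by
    have := Nat.dvd_sub h' h
    have e : q + 1 - (q - 1) = 2 := by omega
    rwa [e] at this
  have h5 : r = 2 := (Nat.prime_dvd_prime_iff_eq hr Nat.prime_two).1 h4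
  subst h5
  obtain ⟨k, rfl⟩ := hq
  omega

theorem four_f {f : ℕ} : (2 ^ f) ^ 2 + 1 ∣ 2 ^ (4 * f) - 1 := by
  have h : 2 ^ (4 * f) - 1 = ((2 ^ f) ^ 2 + 1) * ((2 ^ f) ^ 2 - 1) := by
    have e : 2 ^ (4 * f) = ((2 ^ f) ^ 2) ^ 2 := by rw [← pow_mul, ← pow_mul]; congr 1; ring
    rw [e]
    have h1 : 1 ≤ (2 ^ f) ^ 2 := Nat.one_le_pow _ _ (Nat.pos_of_ne_zero (by positivity))
    obtain ⟨k, hk⟩ := Nat.exists_eq_add_of_le h1
    rw [hk, Nat.add_sub_cancel_left]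
    have : (1 + k) ^ 2 = (1 + k + 1) * k + 1 := by ring
    omega
  rw [h]; exact dvd_mul_right _ _

/-- `r` with `ord_r(2) = 4 f` divides `q ^ 2 + 1` -/
theorem z_dvd_sz {f r : ℕ} (hf : 1 ≤ f) (hr : r.Prime) (h : orderOf (2 : ZMod r) = 4 * f) :
    r ∣ (2 ^ f) ^ 2 + 1 := by
  have h0 : r ∣ 2 ^ (4 * f) - 1 := (dvd_iff h).2 dvd_rfl
  have e : 2 ^ (4 * f) - 1 = ((2 ^ f) ^ 2 + 1) * (2 ^ (2 * f) - 1) := by
    have e : 2 ^ (4 * f) = ((2 ^ f) ^ 2) ^ 2 := by rw [← pow_mul, ← pow_mul]; congr 1; ring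
    have e' : 2 ^ (2 * f) = (2 ^ f) ^ 2 := by rw [← pow_mul]; congr 1; ring
    rw [e, e']
    have h1 : 1 ≤ (2 ^ f) ^ 2 := Nat.one_le_pow _ _ (Nat.pos_of_ne_zero (by positivity))
    obtain ⟨k, hk⟩ := Nat.exists_eq_add_of_le h1
    rw [hk, Nat.add_sub_cancel_left]
    have : (1 + k) ^ 2 = (1 + k + 1) * k + 1 := by ring
    omega
  rw [e] at h0
  rcases hr.dvd_mul.1 h0 with h1 | h1
  · exact h1
  · exfalso
    have := Nat.le_of_dvd (by omega) ((dvd_iff h).1 h1)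
    omega

/-- `r` with `ord_r(2) = 4 f` divides `|Sz(q')|`: then `4 f ∣ 4 f'` -/
theorem z_sz {f f' r : ℕ} (hf : 1 ≤ f) (hf' : 1 ≤ f') (hr : r.Prime) (h : orderOf (2 : ZMod r) = 4 * f)
    (hd : r ∣ (2 ^ f') ^ 2 * ((2 ^ f') ^ 2 + 1) * (2 ^ f' - 1)) : f ∣ f' := by
  have h2 := ne_two h (by omega)
  have h3 : r ∣ 2 ^ (4 * f') - 1 := by
    rcases hr.dvd_mul.1 hd with h4 | h4
    · rcases hr.dvd_mul.1 h4 with h5 | h5
      · exact absurd ((Nat.prime_dvd_prime_iff_eq hr Nat.prime_two).1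
          (hr.dvd_of_dvd_pow (hr.dvd_of_dvd_pow h5))) h2
      · exact h5.trans four_f
    · exact h4.trans (Nat.pow_sub_one_dvd_pow_sub_one 2 (dvd_mul_left f' 4))
  have h4 := (dvd_iff h).1 h3
  exact Nat.dvd_of_mul_dvd_mul_left (by norm_num) h4

/-- `3` does not divide `|Sz(q)|` for `q` an odd power of `2` -/
theorem three_sz {m : ℕ} (h : 3 ∣ (2 ^ (2 * m + 1)) ^ 2 * ((2 ^ (2 * m + 1)) ^ 2 + 1) * (2 ^ (2 * m + 1) - 1)) :
    False := by
  have h1 : 2 ^ (2 * m + 1) % 3 = 2 := by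
    rw [pow_succ, pow_mul, Nat.mul_mod, Nat.pow_mod]
    norm_num
  have h2 : 1 ≤ 2 ^ (2 * m + 1) := Nat.one_le_two_pow
  generalize 2 ^ (2 * m + 1) = q at h h1 h2
  have hp : Nat.Prime 3 := Nat.prime_three
  rcases hp.dvd_mul.1 h with h3 | h3
  · rcases hp.dvd_mul.1 h3 with h4 | h4
    · have := hp.dvd_of_dvd_pow h4
      omega
    · have h5 : (q ^ 2 + 1) % 3 = 2 := by rw [Nat.add_mod, Nat.pow_mod, h1]
      omega
  · omega

theorem three_psl (q : ℕ) : 3 ∣ (q + 1) * (q * (q - 1)) := by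
  rcases q with _ | q
  · simp
  · rw [Nat.add_sub_cancel]
    have h : q % 3 = 0 ∨ q % 3 = 1 ∨ q % 3 = 2 := by omega
    rcases h with h | h | h
    · exact ((Nat.dvd_of_mod_eq_zero h).mul_left _).mul_left _
    · have : 3 ∣ q + 1 + 1 := by omega
      exact this.mul_right _
    · have : 3 ∣ q + 1 := by omega
      exact (this.mul_right _).mul_left _

end H18.PGNum
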