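import Mathlib
import Cfsg.Agent.Lib.H8.SzRec10
import Cfsg.Agent.S2238
import Cfsg.Agent.Lib.H53.Zsig

/-!
Facts about `Sz(q)` used for prime graph recognition.
-/
set_option autoImplicit false
set_option linter.unusedSectionVars false
set_option linter.style.haveILetI false

namespace H18.PGSz

open Cfsg MulAction H8.Zass H16.Zass H16.ZassFrob H8.ZassChar H18.TICoh H8.SuzGrp H8.SuzMain H8.SzRec

theorem ker_data {F : Type*} [Field F] [Fintype F] {m : ℕ} (hm : 1 ≤ m) (hF : Fintype.card F = 2 ^ (2 * m + 1)) :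
    Finite (Cfsg.Sz F m) ∧ Finite (Cfsg.suzukiOvoid F m) ∧ ∃ (a b : Cfsg.suzukiOvoid F m) (K : Subgroup (Cfsg.Sz F m)), a ≠ b ∧
      IsKer a K ∧ IsPGroup 2 K ∧ ¬ IsMulCommutative K := by
  classical
  haveI : Finite (Cfsg.suzukiOvoid F m) := by
    apply Nat.finite_of_card_ne_zero
    rw [H8.SuzOvoid.card_ovoid]
    positivity
  letI : Fintype (Cfsg.suzukiOvoid F m) := Fintype.ofFinite _
  have hcO : Fintype.card (Cfsg.suzukiOvoid F m) = Fintype.card F ^ 2 + 1 := by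
    rw [← Nat.card_eq_fintype_card, H8.SuzOvoid.card_ovoid]
  have hZ₂ := H8.SuzGroup.zassenhaus (F := F) (m := m) hm hF
  haveI : Finite (Cfsg.Sz F m) := H8.Zass.finite_group hZ₂
  haveI : IsSimpleGroup (Cfsg.Sz F m) := H8.SuzSimple.isSimple hm hF
  obtain ⟨g, hg, a₂, b₂, hab₂, -, -⟩ := hZ₂.2.2.2.1
  obtain ⟨K₂, hK₂⟩ := exists_isKer hZ₂ hab₂
  have hcK₂ := hK₂.card hZ₂ hab₂
  have hq8 : 8 ≤ Fintype.card F := by
    rw [hF]
    calc 8 = 2 ^ 3 := by norm_num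
      _ ≤ 2 ^ (2 * m + 1) := Nat.pow_le_pow_right (by norm_num) (by omega)
  have hcardG := H19.Zass1.card_G hZ₂ hab₂
  have hcSz := H8.SuzGroup.card_Sz (F := F) (m := m) hm hF
  have he : Nat.card (E2 (Cfsg.Sz F m) a₂ b₂) = Fintype.card F - 1 := by
    have h3 : Nat.card (Cfsg.Sz F m) = (Fintype.card F ^ 2 + 1) * (Fintype.card F ^ 2 *
        Nat.card (E2 (Cfsg.Sz F m) a₂ b₂)) := by
      rw [hcO, Nat.add_sub_cancel] at hcardG
      exact hcardG
    rw [hcSz, ← hF] at h3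
    have h4 : (Fintype.card F ^ 2 + 1) * (Fintype.card F ^ 2 * (Fintype.card F - 1)) =
        (Fintype.card F ^ 2 + 1) * (Fintype.card F ^ 2 * Nat.card (E2 (Cfsg.Sz F m) a₂ b₂)) := by
      rw [← h3]; ring
    have h5 := Nat.eq_of_mul_eq_mul_left (by positivity) h4
    exact (Nat.eq_of_mul_eq_mul_left (by positivity) h5).symm
  have hodd : Odd (Nat.card (E2 (Cfsg.Sz F m) a₂ b₂)) := by
    rw [he, hF]
    have h1 : Even (2 ^ (2 * m + 1)) := Even.pow_of_ne_zero (by decide) (by omega)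
    exact Nat.Even.sub_odd Nat.one_le_two_pow h1 odd_one
  rcases H8.ZassFeit.gen_case _ rfl hZ₂ hab₂ hK₂ hodd with h | ⟨⟨n, hn⟩, hna₂, -⟩
  · exfalso
    rw [hcO] at hcK₂
    rw [he] at h
    have h6 : Fintype.card F ^ 2 ≤ 2 * (Fintype.card F - 1) + 1 := by omega
    have h7 : 8 * Fintype.card F ≤ Fintype.card F ^ 2 := by rw [pow_two]; exact Nat.mul_le_mul_right _ hq8
    omega
  · exact ⟨inferInstance, inferInstance, a₂, b₂, K₂, hab₂, hK₂, IsPGroup.of_card hn, hna₂⟩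

/-- `Sz(q)` depends only on `q` -/
theorem sz_congr {F F' : Type*} [Field F] [Fintype F] [Field F'] [Fintype F'] {m : ℕ} (hm : 1 ≤ m)
    (hF : Fintype.card F = 2 ^ (2 * m + 1)) (hF' : Fintype.card F' = 2 ^ (2 * m + 1)) :
    Nonempty (Cfsg.Sz F m ≃* Cfsg.Sz F' m) := by
  classical
  obtain ⟨i1, i2, a, b, K, hab, hK, h2, hna⟩ := ker_data hm hF
  obtain ⟨i1', i2', a', b', K', hab', hK', h2', hna'⟩ := ker_data hm hF'
  haveI : IsSimpleGroup (Cfsg.Sz F m) := H8.SuzSimple.isSimple hm hF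
  haveI : IsSimpleGroup (Cfsg.Sz F' m) := H8.SuzSimple.isSimple hm hF'
  letI : Fintype (Cfsg.suzukiOvoid F m) := Fintype.ofFinite _
  letI : Fintype (Cfsg.suzukiOvoid F' m) := Fintype.ofFinite _
  have hcO : Fintype.card (Cfsg.suzukiOvoid F m) = Fintype.card F ^ 2 + 1 := by
    rw [← Nat.card_eq_fintype_card, H8.SuzOvoid.card_ovoid]
  have hcO' : Fintype.card (Cfsg.suzukiOvoid F' m) = Fintype.card F' ^ 2 + 1 := by
    rw [← Nat.card_eq_fintype_card, H8.SuzOvoid.card_ovoid]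
  exact iso_of_card (H8.SuzGroup.zassenhaus (F := F) (m := m) hm hF) hab hK h2 hna
    (H8.SuzGroup.zassenhaus (F := F') (m := m) hm hF') hab' hK' h2' hna' (by rw [hcO, hcO', hF, hF'])

/-- element orders of `Sz(q)` -/
theorem orders {F : Type*} [Field F] [Fintype F] {m : ℕ} (hm : 1 ≤ m) (hF : Fintype.card F = 2 ^ (2 * m + 1))
    (g : Cfsg.Sz F m) : (∃ k, orderOf g = 2 ^ k) ∨ orderOf g ∣ 2 ^ (2 * m + 1) - 1 ∨
      orderOf g ∣ (2 ^ (2 * m + 1)) ^ 2 + 1 := by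
  haveI : Fact (Nat.Prime 2) := ⟨Nat.prime_two⟩
  by_cases hg : g = 1
  · left; exact ⟨0, by rw [hg, orderOf_one, pow_zero]⟩
  obtain ⟨U, ⟨hU, hgU⟩, -⟩ := Cfsg.Agent.S2238.result hm hF g hg
  have hdvd : orderOf g ∣ Nat.card U := by
    rw [← Subgroup.orderOf_mk _ hgU]; exact orderOf_dvd_natCard _
  rcases hU with ⟨P, rfl⟩ | ⟨-, hc⟩
  · left
    obtain ⟨k, hk⟩ := IsPGroup.iff_orderOf.1 P.2 ⟨g, hgU⟩
    exact ⟨k, by rw [← hk]; exact (Subgroup.orderOf_mk g hgU).symm⟩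
  · right
    have h1 : (2 ^ (2 * m + 1) + 2 ^ (m + 1) + 1) * (2 ^ (2 * m + 1) - 2 ^ (m + 1) + 1) =
        (2 ^ (2 * m + 1)) ^ 2 + 1 := by
      have hle : 2 ^ (m + 1) ≤ 2 ^ (2 * m + 1) := Nat.pow_le_pow_right (by norm_num) (by omega)
      have h2 : (2 ^ (m + 1)) ^ 2 = 2 * 2 ^ (2 * m + 1) := by
        rw [← pow_mul, ← pow_succ']; congr 1; ring
      zify [hle]
      have h3 : ((2 : ℤ) ^ (m + 1)) ^ 2 = 2 * 2 ^ (2 * m + 1) := by exact_mod_cast h2
      linear_combination -h3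
    simp only [Set.mem_insert_iff, Set.mem_singleton_iff] at hc
    rcases hc with h | h | h
    · left; rw [← h]; exact hdvd
    · right; rw [← h1, ← h]; exact hdvd.mul_right _
    · right; rw [← h1, ← h]; exact hdvd.mul_left _

end H18.PGSz
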