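import Cfsg.Agent.Lib.H18.GoDown

/-!
Relative M-groups (Isaacs 6.22).
-/

set_option autoImplicit false
set_option linter.unusedSectionVars false

namespace H18.RelM

open Cfsg H18.CharBasic H18.CharOrtho H18.CharInd H18.CharQuot H31.Clifford H18.Primitive

universe u

/-- Composition of inductions through `T`. -/
theorem exists_trans {G : Type u} [Group G] [Fintype G] (T : Subgroup G) [Fintype T]
    (H' : Subgroup T) (ψ' : H' → ℂ) (hψ' : IsIrrCharacter H' ψ') :
    ∃ ψ : ↥(H'.map T.subtype) → ℂ, IsIrrCharacter ↥(H'.map T.subtype) ψ ∧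
      indFun (H'.map T.subtype) ψ = indFun T (indFun H' ψ') ∧
      ∀ (x : T) (hx : x ∈ H'), ψ ⟨x, ⟨x, hx, rfl⟩⟩ = ψ' ⟨x, hx⟩ := by
  let E' : Subgroup G := H'.map T.subtype
  have hEH : E' ≤ T := by rintro _ ⟨y, _, rfl⟩; exact y.2
  let e : H' ≃* E' := H'.equivMapOfInjective T.subtype T.subtype_injective
  let φ' : E' → ℂ := fun x => ψ' (e.symm x)
  have hφ' : IsIrrCharacter E' φ' := isIrrCharacter_comp e.symm.toMonoidHom e.symm.surjective hψ'
  have h1 := indFun_trans E' T hEH φ'
  have h2 : E'.subgroupOf T = H' := Subgroup.comap_map_eq_self_of_injective T.subtype_injective H'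
  have h3 : ∀ (E₂ : Subgroup T) (hE₂ : E₂ = H') (ψ : E₂ → ℂ),
      (∀ x : E₂, ψ x = ψ' ⟨x, hE₂ ▸ x.2⟩) → indFun E₂ ψ = indFun H' ψ' := by
    rintro E₂ rfl ψ hψ
    exact indFun_congr _ fun x => hψ x
  have h4 := h3 _ h2 (fun x => φ' ⟨(x : T), Subgroup.mem_subgroupOf.mp x.2⟩) (by
    intro x
    show ψ' (e.symm _) = ψ' _
    congr 1
    rw [MulEquiv.symm_apply_eq]
    rfl)
  refine ⟨φ', hφ', ?_, ?_⟩
  · rw [← h4, h1]
  · intro x hx
    show ψ' (e.symm _) = ψ' _
    congr 1
    rw [MulEquiv.symm_apply_eq]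
    rfl

theorem isSolvable_quot_sub {G : Type u} [Group G] (N T : Subgroup G) [N.Normal]
    (h : Group.IsSolvable (G ⧸ N)) : Group.IsSolvable (T ⧸ N.subgroupOf T) := by
  let q : T ⧸ N.subgroupOf T →* G ⧸ N := QuotientGroup.map (N.subgroupOf T) N T.subtype le_rfl
  have hq : Function.Injective q := by
    rw [injective_iff_map_eq_one]
    intro a ha
    obtain ⟨a, rfl⟩ := QuotientGroup.mk_surjective a
    have h1 : ((a : G) : G ⧸ N) = 1 := ha
    rw [QuotientGroup.eq_one_iff] at h1 ⊢
    exact Subgroup.mem_subgroupOf.2 h1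
  exact solvable_of_solvable_injective hq

/-- In a solvable-by-`N` situation, a chief factor `L/M` above `N` is abelian. -/
theorem commutator_le_of_chief {G : Type u} [Group G] (N L M : Subgroup G) [N.Normal] [hL : L.Normal]
    [hM : M.Normal] (hsolv : Group.IsSolvable (G ⧸ N)) (hNM : N ≤ M) (hML : M < L)
    (hchief : ∀ M' : Subgroup G, M'.Normal → M ≤ M' → M' ≤ L → M' = M ∨ M' = L) :
    ⁅L, L⁆ ≤ M := by
  have hLL : ⁅L, L⁆ ≤ L := Subgroup.commutator_le_right L L
  rcases hchief (M ⊔ ⁅L, L⁆) inferInstance le_sup_left (sup_le hML.le hLL) with h | h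
  · rw [← h]; exact le_sup_right
  · exfalso
    have hsM : Group.IsSolvable (G ⧸ M) := by
      let q : G ⧸ N →* G ⧸ M := QuotientGroup.map N M (MonoidHom.id G) hNM
      have hq : Function.Surjective q := by
        intro a
        obtain ⟨a, rfl⟩ := QuotientGroup.mk_surjective a
        exact ⟨(a : G ⧸ N), rfl⟩
      exact solvable_of_surjective hq
    have h1 : L.map (QuotientGroup.mk' M) ≠ ⊥ := by
      intro hb
      rw [Subgroup.map_eq_bot_iff, QuotientGroup.ker_mk'] at hb
      exact hML.not_ge hb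
    have h2 := IsSolvable.commutator_lt_of_ne_bot h1
    have h3 : L.map (QuotientGroup.mk' M) = ⁅L.map (QuotientGroup.mk' M), L.map (QuotientGroup.mk' M)⁆ := by
      conv_lhs => rw [← h]
      rw [Subgroup.map_sup, Subgroup.map_commutator]
      have : M.map (QuotientGroup.mk' M) = ⊥ := by
        rw [Subgroup.map_eq_bot_iff, QuotientGroup.ker_mk']
      rw [this, bot_sup_eq]
    exact h2.ne h3.symm

theorem rel_M (n : ℕ) : ∀ (G : Type u) [Group G] [Fintype G] (N : Subgroup G) [N.Normal],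
    Nat.card G = n → Group.IsSolvable (G ⧸ N) →
    (∀ (H K L : Subgroup G), N ≤ L → L < K → K ≤ H → (∀ h ∈ H, ∀ k ∈ K, h * k * h⁻¹ ∈ K) →
      (∀ h ∈ H, ∀ l ∈ L, h * l * h⁻¹ ∈ L) →
      (∀ M : Subgroup G, L ≤ M → M ≤ K → (∀ h ∈ H, ∀ m ∈ M, h * m * h⁻¹ ∈ M) → M = L ∨ M = K) →
      ¬ IsSquare (L.relIndex K)) →
    ∀ χ : G → ℂ, IsIrrCharacter G χ → ∃ (H : Subgroup G) (hNH : N ≤ H) (ψ : H → ℂ),
      IsIrrCharacter H ψ ∧ indFun H ψ = χ ∧
        IsIrrCharacter N (fun n : N => ψ ⟨(n : G), hNH n.2⟩) := by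
  induction n using Nat.strong_induction_on with
  | _ n ih =>
  intro G _ _ N hN hn hsolv hchief χ hχ
  classical
  have hχc := isCharacter_of_isIrr hχ
  have hχf := isClassFunction_of_isIrr hχ
  by_cases hA : ∃ (T : Subgroup G) (ψ : T → ℂ), N ≤ T ∧ T ≠ ⊤ ∧ IsIrrCharacter T ψ ∧ indFun T ψ = χ
  · obtain ⟨T, ψ, hNT, hT, hψ, rfl⟩ := hA
    have hcard : Nat.card T < n := by
      rw [← hn]
      exact lt_of_le_of_ne (Subgroup.card_le_card_group T)
        (fun h => hT (Subgroup.eq_top_of_card_eq T h))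
    have hN'n : (N.subgroupOf T).Normal := hN.subgroupOf T
    obtain ⟨H', hNH', ψ', hψ', hind, hres⟩ := ih _ hcard T (N.subgroupOf T) rfl
      (isSolvable_quot_sub N T hsolv) (by
        intro H K L hNL hLK hKH hK hL hch
        have hinj := T.subtype_injective
        have hrel : (L.map T.subtype).relIndex (K.map T.subtype) = L.relIndex K :=
          Subgroup.relIndex_map_map_of_injective L K hinj
        rw [← hrel]
        apply hchief (H.map T.subtype) (K.map T.subtype) (L.map T.subtype)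
        · intro x hx
          exact ⟨⟨x, hNT hx⟩, hNL (Subgroup.mem_subgroupOf.2 hx), rfl⟩
        · exact (Subgroup.map_lt_map_iff_of_injective hinj).2 hLK
        · exact Subgroup.map_mono hKH
        · rintro _ ⟨h, hh, rfl⟩ _ ⟨k, hk, rfl⟩
          exact ⟨h * k * h⁻¹, hK h hh k hk, rfl⟩
        · rintro _ ⟨h, hh, rfl⟩ _ ⟨k, hk, rfl⟩
          exact ⟨h * k * h⁻¹, hL h hh k hk, rfl⟩
        · intro M hLM hMK hM
          have hMT : M ≤ T := hMK.trans (by rintro _ ⟨y, _, rfl⟩; exact y.2)
          have hMM : (M.subgroupOf T).map T.subtype = M := by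
            rw [Subgroup.subgroupOf_map_subtype, inf_eq_left.2 hMT]
          have h1 := hch (M.subgroupOf T) (by
              intro x hx
              exact Subgroup.mem_subgroupOf.2 (hLM ⟨x, hx, rfl⟩)) (by
              intro x hx
              obtain ⟨y, hy, hyx⟩ := hMK (Subgroup.mem_subgroupOf.1 hx)
              have : y = x := hinj hyx
              rw [← this]; exact hy) (by
              intro h hh m hm
              exact Subgroup.mem_subgroupOf.2 (hM h ⟨h, hh, rfl⟩ m (Subgroup.mem_subgroupOf.1 hm)))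
          rcases h1 with h1 | h1
          · left; rw [← hMM, h1]
          · right; rw [← hMM, h1]) ψ hψ
    obtain ⟨ψ'', h1, h2, h3⟩ := exists_trans T H' ψ' hψ'
    have hNH : N ≤ H'.map T.subtype := by
      intro x hx
      exact ⟨⟨x, hNT hx⟩, hNH' (Subgroup.mem_subgroupOf.2 hx), rfl⟩
    refine ⟨H'.map T.subtype, hNH, ψ'', h1, by rw [h2, hind], ?_⟩
    let ι : N →* N.subgroupOf T :=
      { toFun := fun x => ⟨⟨x, hNT x.2⟩, Subgroup.mem_subgroupOf.2 x.2⟩
        map_one' := rfl
        map_mul' := fun _ _ => rfl }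
    have hι : Function.Surjective ι := fun y =>
      ⟨⟨((y : T) : G), Subgroup.mem_subgroupOf.1 y.2⟩, rfl⟩
    have h4 := isIrrCharacter_comp ι hι hres
    have h5 : (fun n : N => ψ'' ⟨(n : G), hNH n.2⟩) = fun n : N =>
        ψ' ⟨((ι n : N.subgroupOf T) : T), hNH' (ι n).2⟩ := by
      funext x
      exact h3 ⟨x, hNT x.2⟩ (hNH' (Subgroup.mem_subgroupOf.2 x.2))
    rw [h5]
    exact h4
  · -- relatively primitive
    have hinv : ∀ (M : Subgroup G) [M.Normal], N ≤ M → ∀ φ : M → ℂ, IsIrrCharacter M φ →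
        classInner (fun x : M => χ x) φ ≠ 0 → ∀ g : G, conjFunN M g φ = φ := by
      intro M _ hNM φ hφ hne
      by_contra hcon
      apply hA
      push Not at hcon
      obtain ⟨g, hg⟩ := hcon
      have hMT : M ≤ inertia M φ := le_inertia M (isClassFunction_of_isIrr hφ)
      obtain ⟨ψ, hψ, h1, h2⟩ := exists_intermediate M (inertia M φ) hMT hχc hφ hne
      refine ⟨inertia M φ, ψ, hNM.trans hMT, ?_, hψ,
        (corr_core M (inertia M φ) hMT hφ (fun g => mem_inertia M) hψ h2 hχ h1).1⟩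
      intro htop
      apply hg
      have : g ∈ inertia M φ := by rw [htop]; trivial
      exact (mem_inertia M).1 this
    -- minimal L
    let S : Set (Subgroup G) := {L | L.Normal ∧ N ≤ L ∧ IsIrrCharacter L (fun x : L => χ x)}
    have hS : S.Nonempty := by
      refine ⟨⊤, inferInstance, le_top, ?_⟩
      exact isIrrCharacter_comp (Subgroup.topEquiv (G := G)).toMonoidHom
        (Subgroup.topEquiv (G := G)).surjective hχ
    obtain ⟨L, ⟨hLn, hNL, hLirr⟩, hmin⟩ := Set.Finite.exists_minimal (Set.toFinite S) hS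
    have hLN : L = N := by
      by_contra hne
      have hlt : N < L := lt_of_le_of_ne hNL (Ne.symm hne)
      let S' : Set (Subgroup G) := {M | M.Normal ∧ N ≤ M ∧ M < L}
      have hS' : S'.Nonempty := ⟨N, hN, le_rfl, hlt⟩
      obtain ⟨M, ⟨hMn, hNM, hML⟩, hmax⟩ := Set.Finite.exists_maximal (Set.toFinite S') hS'
      have hch : ∀ M' : Subgroup G, M'.Normal → M ≤ M' → M' ≤ L → M' = M ∨ M' = L := by
        intro M' hM' h1 h2
        by_cases h3 : M' = L
        · exact Or.inr h3
        · left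
          exact le_antisymm (hmax ⟨hM', hNM.trans h1, lt_of_le_of_ne h2 h3⟩ h1) h1
      have hab := commutator_le_of_chief N L M hsolv hNM hML hch
      have hrel1 : M.relIndex L ≠ 1 := by
        intro h
        rw [Subgroup.relIndex_eq_one] at h
        exact hML.not_ge h
      rcases H18.GoDown.going_down L M hML hch hab (fun x : L => χ x) hLirr (by
        intro g x
        exact hχf x g) with h | ⟨φ, e, hφ, hres, he⟩ | ⟨F, hF, hFc, hres⟩
      · have h1 : M ∈ S := ⟨hMn, hNM, h⟩
        exact hML.not_ge (hmin h1 hML.le)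
      · refine hchief ⊤ L M hNM hML le_top (fun h _ k hk => hLn.conj_mem k hk h)
          (fun h _ k hk => hMn.conj_mem k hk h) ?_ ⟨e, by rw [← he]; ring⟩
        intro M' h1 h2 h3
        exact hch M' ⟨fun m hm g => h3 g trivial m hm⟩ h1 h2
      · -- two distinct members of F
        have hFc1 : F.card ≠ 1 := by rw [hFc]; exact hrel1
        have hFc0 : F.card ≠ 0 := by
          rw [hFc]
          have : (M.subgroupOf L).index ≠ 0 := Subgroup.index_ne_zero_of_finite
          exact this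
        obtain ⟨φ₁, h₁, φ₂, h₂, h12⟩ := Finset.one_lt_card.1 (show 1 < F.card by omega)
        have hcon : ∀ φ ∈ F, classInner (fun x : M => χ x) φ ≠ 0 := by
          intro φ hφ
          have h3 : (fun x : M => χ x) = ∑ φ ∈ F, φ := hres
          rw [h3, CharOrtho.inner_sum_left, Finset.sum_eq_single φ]
          · rw [inner_irr_self (hF φ hφ)]; exact one_ne_zero
          · intro ψ hψ hne'
            exact inner_irr_ne (hF ψ hψ) (hF φ hφ) hne'
          · intro h; exact absurd hφ h
        obtain ⟨g, hg⟩ := constituents_conj M hχ (hF φ₁ h₁) (hF φ₂ h₂) (hcon φ₁ h₁) (hcon φ₂ h₂)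
        rw [hinv M hNM φ₁ (hF φ₁ h₁) (hcon φ₁ h₁)] at hg
        exact h12 hg.symm
    subst hLN
    refine ⟨⊤, le_top, fun x => χ x, ?_, ?_, hLirr⟩
    · exact isIrrCharacter_comp (Subgroup.topEquiv (G := G)).toMonoidHom
        (Subgroup.topEquiv (G := G)).surjective hχ
    · funext g
      rw [indFun_top]
      exact isClassFunction_restrict ⊤ hχf

end H18.RelM
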